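import Cfsg.Agent.Classical.RegGenG
import Cfsg.Agent.Known.Pres.Field

/-! Generation of classical groups by two elements: the uniform part. -/

set_option autoImplicit false

namespace CF.Known.Gen2

open Module CF.Geom

section grp

variable {G : Type*} [Group G] {M : Subgroup G} {F : Type*} [Field F]

theorem trick {h c x : G} (hh : h ∈ M) (hx : x * c ∈ M) (hc : Commute h (c * h * c⁻¹)) :
    h * x * h⁻¹ * (h * ((c * h * c⁻¹) * x⁻¹ * (c * h * c⁻¹)⁻¹) * h⁻¹) *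
      ((c * h * c⁻¹) * x * (c * h * c⁻¹)⁻¹) * x⁻¹ ∈ M := by
  have h1 : x * (c * h * c⁻¹) * x⁻¹ ∈ M := by
    convert mul_mem (mul_mem hx hh) (inv_mem hx) using 1; group
  convert mul_mem (mul_mem (mul_mem hh h1) (inv_mem hh)) (inv_mem h1) using 1
  generalize c * h * c⁻¹ = d at hc
  calc _ = h * x * d * x⁻¹ * (d⁻¹ * h⁻¹ * d) * x * d⁻¹ * x⁻¹ := by group
    _ = _ := by rw [← hc.inv_inv.eq]; group

variable {P : F → G → Prop} (add : ∀ {t t' g g'}, P t g → P t' g' → P (t + t') (g * g'))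
  (neg : ∀ {t g}, P t g → P (-t) g⁻¹)
include add neg

theorem spread {h g : G} (hh : h ∈ M) {l t₀ : F} (hl : ∀ {t g}, P t g → P (l * t) (h * g * h⁻¹))
    (hgen : AddSubgroup.closure (Set.range fun i : ℕ => l ^ i) = ⊤) (hg : g ∈ M) (h0 : P t₀ g)
    (ht : t₀ ≠ 0) (t : F) : ∃ g ∈ M, P t g := by
  let A : AddSubgroup F :=
    { carrier := {s | ∃ g ∈ M, P (s * t₀) g}
      add_mem' := fun ⟨g, h1, h2⟩ ⟨g', h1', h2'⟩ =>
        ⟨_, mul_mem h1 h1', by simpa only [add_mul] using add h2 h2'⟩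
      zero_mem' := ⟨_, mul_mem hg (inv_mem hg), by simpa using add h0 (neg h0)⟩
      neg_mem' := fun ⟨g, h1, h2⟩ => ⟨_, inv_mem h1, by simpa only [neg_mul] using neg h2⟩ }
  have : ⊤ ≤ A := hgen ▸ (AddSubgroup.closure_le A).2 (by
    rintro _ ⟨i, rfl⟩
    induction i with
    | zero => exact ⟨g, hg, by simpa using h0⟩
    | succ i ih =>
      obtain ⟨g, h1, h2⟩ := ih
      exact ⟨_, mul_mem (mul_mem hh h1) (inv_mem hh), by
        simpa only [pow_succ', mul_assoc] using hl h2⟩)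
  simpa [A, ht] using this (AddSubgroup.mem_top (t / t₀))

theorem spread_prime (hp : ∀ x : F, ∃ k : ℤ, x = k) {g : G} (hg : g ∈ M) (h0 : P 1 g) (t : F) :
    ∃ g ∈ M, P t g :=
  spread add neg (one_mem M) (l := 1) (by simp) (eq_top_iff.2 fun x _ => by
    obtain ⟨k, rfl⟩ := hp x
    simpa using zsmul_mem (AddSubgroup.subset_closure (k := Set.range fun i : ℕ => (1 : F) ^ i)
      ⟨0, rfl⟩) k) hg h0 one_ne_zero t

theorem trick_all {h c x : G} (hh : h ∈ M) (hx : x * c ∈ M) (hc : Commute h (c * h * c⁻¹))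
    {l l' : F} (hl : ∀ {t g}, P t g → P (l * t) (h * g * h⁻¹))
    (hl' : ∀ {t g}, P t g → P (l' * t) (c * h * c⁻¹ * g * (c * h * c⁻¹)⁻¹))
    (hgen : AddSubgroup.closure (Set.range fun i : ℕ => l ^ i) = ⊤) (h1 : l ≠ 1) (h1' : l' ≠ 1)
    (h0 : P 1 x) (t : F) : ∃ g ∈ M, P t g :=
  spread add neg hh hl hgen (trick hh hx hc)
    (add (add (add (hl h0) (hl (hl' (neg h0)))) (hl' h0)) (neg h0))
    (fun e => mul_ne_zero (sub_ne_zero.2 h1) (sub_ne_zero.2 h1') (by linear_combination -e)) t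

end grp

variable {F V : Type*} [Field F] [AddCommGroup V] [Module F V] {σ : F →+* F}
  {B : V →ₛₗ[σ] V →ₗ[F] F} {Q : V → F} {G M : Subgroup (V ≃ₗ[F] V)}

/-- `G` is generated by two elements. -/
def Two (G : Subgroup (V ≃ₗ[F] V)) : Prop :=
  ∃ a ∈ G, ∃ b ∈ G, ∀ M : Subgroup (V ≃ₗ[F] V), a ∈ M → b ∈ M → G ≤ M

theorem Two.transfer (h : Two G) {H H' : Type*} [Group H] [Group H'] (ε : H ≃* G) (π : H →* H')
    (hπ : Function.Surjective π) : ∃ a b : H', Subgroup.closure {a, b} = ⊤ := by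
  obtain ⟨a, ha, b, hb, h⟩ := h
  have := Classical.closure_transfer ε (s := {ε.symm ⟨a, ha⟩, ε.symm ⟨b, hb⟩}) fun K _ hK =>
    h K (by simpa using hK _ (.inl rfl)) (by simpa using hK _ (.inr rfl))
  refine ⟨π (ε.symm ⟨a, ha⟩), π (ε.symm ⟨b, hb⟩), ?_⟩
  rw [← Set.image_pair, ← MonoidHom.map_closure, this, Subgroup.map_top_of_surjective _ hπ]

/-- An element of the radical at `e` with displacement `a`. -/
structure Dp (B : V →ₛₗ[σ] V →ₗ[F] F) (Q : V → F) (e a : V) (g : V ≃ₗ[F] V) : Prop where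
  isom : g ∈ Isom B Q
  iso : B e e = 0
  perp : B e a = 0
  disp : ∀ x, ∃ k : F, g x = x + B e x • a + k • e

namespace Dp

variable {e a a' : V} {g g' : V ≃ₗ[F] V}

theorem mul (h : Dp B Q e a g) (h' : Dp B Q e a' g') : Dp B Q e (a + a') (g * g') := by
  refine ⟨mul_mem h.isom h'.isom, h.iso, by simp [h.perp, h'.perp], fun x => ?_⟩
  obtain ⟨k, e1⟩ := h'.disp x
  obtain ⟨k', e2⟩ := h.disp (g' x)
  refine ⟨k + k', (e2.trans ?_)⟩
  simp only [e1, map_add, map_smul, h.iso, h'.perp, smul_eq_mul]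
  module

theorem inv (h : Dp B Q e a g) : Dp B Q e (-a) g⁻¹ := by
  refine ⟨inv_mem h.isom, h.iso, by simp [h.perp], fun x => ?_⟩
  obtain ⟨x, rfl⟩ := g.surjective x
  obtain ⟨k, e1⟩ := h.disp x
  refine ⟨-k, ?_⟩
  rw [inv_apply_apply, e1]
  simp only [map_add, map_smul, h.iso, h.perp, smul_eq_mul]
  module

theorem conj (h : Dp B Q e a g) (hg : g' ∈ Isom B Q) :
    Dp B Q (g' e) (g' a) (g' * g * g'⁻¹) := by
  refine ⟨mul_mem (mul_mem hg h.isom) (inv_mem hg), by rw [hg.1, h.iso], by rw [hg.1, h.perp],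
    fun x => ?_⟩
  obtain ⟨x, rfl⟩ := g'.surjective x
  obtain ⟨k, e1⟩ := h.disp x
  exact ⟨k, by simp [e1, hg.1]⟩

theorem smul {l : F} (hl : l ≠ 0) (h : Dp B Q (l • e) a g) : Dp B Q e (σ l • a) g := by
  refine ⟨h.isom, by simpa [hl] using h.iso, by simpa [hl] using h.perp, fun x => ?_⟩
  obtain ⟨k, e1⟩ := h.disp x
  exact ⟨k * l, by simp [e1, smul_smul, mul_comm]⟩

theorem scale (h : Dp B Q e a g) (hg : g' ∈ Isom B Q) {l : F} (hl : l ≠ 0) (e1 : g' e = l • e) :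
    Dp B Q e (σ l • g' a) (g' * g * g'⁻¹) := smul hl (e1 ▸ h.conj hg)

theorem apply (hW : IsWittPair σ B Q) (h : Dp B Q e a g) (he : e ≠ 0) {s : V} (hs : B e s = 0) :
    ∃ k : F, g s = s + k • e ∧ (k = 0 ↔ B a s = 0) := by
  obtain ⟨k, e1⟩ := h.disp s
  obtain ⟨y, hy⟩ : ∃ y, B e y ≠ 0 := not_forall.1 fun hy => he (hW.nondeg _ hy)
  obtain ⟨k', e2⟩ := h.disp y
  have := h.isom.1 y s
  simp only [e1, e2, hs, map_add, map_smul, LinearMap.map_smulₛₗ, LinearMap.add_apply,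
    LinearMap.smul_apply, h.iso, hW.refl h.perp, zero_smul, add_zero, smul_eq_mul, mul_zero] at this
  refine ⟨k, by simp [e1, hs], fun e => ?_, fun e => ?_⟩
  · simpa [e, hy] using this
  · simpa [e, hW.refl_iff, hy] using this

end Dp

/-- The displacements occurring in `M`. -/
def Sd (B : V →ₛₗ[σ] V →ₗ[F] F) (Q : V → F) (M : Subgroup (V ≃ₗ[F] V)) (e : V) :
    Submodule F V where
  carrier := {a | B e e = 0 → ∀ t : F, ∃ g ∈ M, Dp B Q e (t • a) g}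
  add_mem' ha hb he t := by
    obtain ⟨g, h1, h2⟩ := ha he t
    obtain ⟨g', h1', h2'⟩ := hb he t
    exact ⟨_, mul_mem h1 h1', by simpa only [smul_add] using h2.mul h2'⟩
  zero_mem' he t := ⟨1, one_mem _, one_mem _, he, by simp, fun x => ⟨0, by simp⟩⟩
  smul_mem' d a ha he t := by rw [smul_smul]; exact ha he _

section Sd

variable {e p a s z : V} {g : V ≃ₗ[F] V}

theorem self_mem_Sd (e : V) : e ∈ Sd B Q M e := fun he t =>
  ⟨1, one_mem _, one_mem _, he, by simp [he], fun x => ⟨-(B e x * t), by simp [smul_smul]⟩⟩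

theorem Sd.one (h : a ∈ Sd B Q M e) (he : B e e = 0) : ∃ g ∈ M, Dp B Q e a g := by
  simpa using h he 1

theorem Sd.map (h : a ∈ Sd B Q M e) (hg : g ∈ Isom B Q) (hM : g ∈ M) :
    g a ∈ Sd B Q M (g e) := fun he t => by
  obtain ⟨g', h1, h2⟩ := h (by rwa [hg.1] at he) t
  exact ⟨_, mul_mem (mul_mem hM h1) (inv_mem hM), map_smul g t a ▸ h2.conj hg⟩

theorem Sd.of_smul (hW : IsWittPair σ B Q) {l : F} (hl : l ≠ 0) (h : a ∈ Sd B Q M (l • e)) :
    a ∈ Sd B Q M e := fun he t => by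
  obtain ⟨g', h1, h2⟩ := h (by simp [he]) (t / σ l)
  exact ⟨_, h1, by simpa [smul_smul, mul_div_cancel₀, hl] using h2.smul hl⟩

variable (hW : IsWittPair σ B Q)
include hW

theorem Sd.move (h : s ∈ Sd B Q M e) (hM : g ∈ M) (hg : Dp B Q p z g) (hp : p ≠ 0)
    (h1 : B p e = 0) (h2 : B z e = 0) : g s - s ∈ Sd B Q M e := by
  obtain ⟨k, e1, e2⟩ := hg.apply hW hp h1
  have := Sd.map h hg.isom hM
  rw [e1, e2.2 h2, zero_smul, add_zero] at this
  exact sub_mem this h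

theorem Sd.step' (h : s ∈ Sd B Q M e) (hM : g ∈ M) (hg : Dp B Q p z g) (hp : p ≠ 0)
    (h1 : B p e = 0) (h2 : B z e = 0) (h3 : B p s = 0) (h4 : B z s ≠ 0) : p ∈ Sd B Q M e := by
  obtain ⟨k, e1, e2⟩ := hg.apply hW hp h3
  have := Sd.move hW h hM hg hp h1 h2
  rwa [e1, add_sub_cancel_left, Submodule.smul_mem_iff _ (mt e2.1 h4)] at this

theorem Sd.step (h : s ∈ Sd B Q M e) (hz : z ∈ Sd B Q M p) (hp : p ≠ 0) (h0 : B p p = 0)
    (h1 : B p e = 0) (h2 : B z e = 0) (h3 : B p s = 0) (h4 : B z s ≠ 0) : p ∈ Sd B Q M e := by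
  obtain ⟨g, hM, hg⟩ := Sd.one hz h0
  exact Sd.step' hW h hM hg hp h1 h2 h3 h4

theorem Sd.step₂ (h : s ∈ Sd B Q M e) (hz : z ∈ Sd B Q M p) (hp : p ∈ Sd B Q M e) (h0 : B p p = 0)
    (h1 : B p e = 0) (h2 : B z e = 0) (h3 : B p s ≠ 0) : z ∈ Sd B Q M e := by
  obtain ⟨g, hM, hg⟩ := Sd.one hz h0
  obtain ⟨k, e1⟩ := hg.disp s
  have := sub_mem (Sd.move hW h hM hg (by rintro rfl; simp at h3) h1 h2) (Submodule.smul_mem _ k hp)
  rwa [e1, show s + B p s • z + k • p - s - k • p = B p s • z by abel,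
    Submodule.smul_mem_iff _ h3] at this

end Sd

/-- A Coxeter element and the orbit of a singular vector. -/
structure Cyc (B : V →ₛₗ[σ] V →ₗ[F] F) (Q : V → F) (m : ℕ) (c : V ≃ₗ[F] V) (u : ℕ → V) :
    Prop where
  witt : IsWittPair σ B Q
  isom : c ∈ Isom B Q
  succ : ∀ k, c (u k) = u (k + 1)
  sing : Q (u 0) = Q 0
  perp : ∀ k < 2 * m, k ≠ m → B (u 0) (u k) = 0
  ne : B (u 0) (u m) ≠ 0
  per : ∃ κ : F, κ ≠ 0 ∧ u (2 * m) = κ • u 0
  span : ∀ W : Submodule F V, (∀ k < 2 * m, u k ∈ W) → (∀ v, (∀ k, B (u k) v = 0) → v ∈ W) →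
    W = ⊤

namespace Cyc

variable {m : ℕ} {c : V ≃ₗ[F] V} {u : ℕ → V} (h : Cyc B Q m c u)
include h

theorem pow (j k : ℕ) : (c ^ j) (u k) = u (k + j) := by
  induction j with
  | zero => rfl
  | succ j ih => rw [pow_succ', LinearEquiv.mul_apply, ih, h.succ, add_assoc]

theorem pow' {j k l : ℕ} (e : k + j = l) : (c ^ j) (u k) = u l := e ▸ h.pow j k

theorem shift (i j k : ℕ) : B (u (i + k)) (u (j + k)) = B (u i) (u j) := by
  rw [← h.pow, ← h.pow, (pow_mem h.isom k).1]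

theorem q (k : ℕ) : Q (u k) = Q 0 := by
  rw [← zero_add k, ← h.pow, (pow_mem h.isom k).2, h.sing]

theorem self (k : ℕ) : B (u k) (u k) = 0 := h.witt.self_eq_zero (h.q k)

theorem pos : 0 < m := Nat.pos_of_ne_zero fun e => h.ne (e ▸ h.self 0)

theorem per' : ∃ κ : F, κ ≠ 0 ∧ ∀ k, u (k + 2 * m) = κ • u k := by
  obtain ⟨κ, h1, h2⟩ := h.per
  exact ⟨κ, h1, fun k => by rw [add_comm, ← h.pow, h2, map_smul, h.pow, zero_add]⟩

theorem perp₁ {i j : ℕ} (h1 : i ≤ j) (h2 : j < i + 3 * m) (h3 : j ≠ i + m) :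
    B (u i) (u j) = 0 := by
  obtain ⟨k, rfl⟩ := Nat.exists_eq_add_of_le' h1
  rw [← zero_add i, ← add_assoc, add_zero, h.shift]
  by_cases e : k < 2 * m
  · exact h.perp k e (by omega)
  obtain ⟨k, rfl⟩ := Nat.exists_eq_add_of_le' (not_lt.1 e)
  obtain ⟨κ, -, h4⟩ := h.per'
  rw [h4, map_smul, h.perp k (by omega) (by omega), smul_zero]

theorem perp₂ {i j : ℕ} (h1 : j < i + 3 * m) (h2 : i < j + 3 * m) (h3 : j ≠ i + m)
    (h4 : i ≠ j + m) : B (u i) (u j) = 0 :=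
  (le_total i j).elim (fun e => h.perp₁ e h1 h3) fun e => h.witt.refl (h.perp₁ e h2 h4)

theorem ne₂ {i j : ℕ} (e : j = i + m ∨ i = j + m) : B (u i) (u j) ≠ 0 := by
  have (i : ℕ) : B (u i) (u (i + m)) ≠ 0 := by
    rw [add_comm, ← zero_add i, ← add_assoc, add_zero, h.shift]; exact h.ne
  rcases e with rfl | rfl
  exacts [this _, mt h.witt.refl (this _)]

theorem ne_zero (k : ℕ) : u k ≠ 0 := fun e => h.ne₂ (.inl rfl : k + m = k + m ∨ _) (by simp [e])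

theorem inv_v {v : V} (hv : ∀ k, B (u k) v = 0) (k : ℕ) : B (u k) (c⁻¹ v) = 0 := by
  rw [← h.isom.1, h.succ, apply_inv_apply, hv]

theorem map_v {v : V} (hv : ∀ k, B (u k) v = 0) (k : ℕ) : B (u k) (c v) = 0 := by
  obtain ⟨κ, h1, h2⟩ := h.per'
  have := hv (k + (2 * m - 1))
  rw [← h.isom.1, h.succ, show k + (2 * m - 1) + 1 = k + 2 * m by have := h.pos; omega, h2] at this
  simpa [h1] using this

theorem pow_v {v : V} (hv : ∀ k, B (u k) v = 0) (j k : ℕ) : B (u k) ((c ^ j) v) = 0 := by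
  induction j generalizing k with
  | zero => exact hv k
  | succ j ih => rw [pow_succ']; exact h.map_v ih k

theorem sd_shift (hc : c ∈ M) {a : V} (ha : a ∈ Sd B Q M (u 0)) (j : ℕ) :
    (c ^ j) a ∈ Sd B Q M (u j) := by
  simpa only [h.pow, zero_add] using Sd.map ha (pow_mem h.isom j) (pow_mem hc j)

theorem allU (hc : c ∈ M) (h1 : u (m + 1) ∈ Sd B Q M (u 0)) (h2 : u (m - 1) ∈ Sd B Q M (u 0))
    (k : ℕ) (hk : k < 2 * m) (hk' : k ≠ m) : u k ∈ Sd B Q M (u 0) := by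
  have key : ∀ s, s + 1 < m → u (m + (s + 1)) ∈ Sd B Q M (u 0) ∧ u (m - (s + 1)) ∈ Sd B Q M (u 0) := by
    intro s hs
    induction s with
    | zero => exact ⟨h1, h2⟩
    | succ s ih =>
      obtain ⟨e1, e2⟩ := ih (by omega)
      refine ⟨Sd.step h.witt e1 (h.pow _ _ ▸ h.sd_shift hc h2 _) (h.ne_zero _) (h.self _) ?_ ?_ ?_ ?_,
        Sd.step h.witt e2 (h.pow _ _ ▸ h.sd_shift hc h1 _) (h.ne_zero _) (h.self _) ?_ ?_ ?_ ?_⟩
      any_goals exact h.ne₂ (by omega)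
      all_goals exact h.perp₂ (by omega) (by omega) (by omega) (by omega)
  rcases Nat.eq_zero_or_pos k with rfl | h0
  · exact self_mem_Sd _
  rcases lt_or_gt_of_ne hk' with e | e
  · simpa only [show m - (m - k - 1 + 1) = k by omega] using (key (m - k - 1) (by omega)).2
  · simpa only [show m + (k - m - 1 + 1) = k by omega] using (key (k - m - 1) (by omega)).1

theorem mem_Sd (h1 : ∀ k < 2 * m, k ≠ m → u k ∈ Sd B Q M (u 0))
    (h2 : ∀ v, (∀ k, B (u k) v = 0) → v ∈ Sd B Q M (u 0)) {a : V} (ha : B (u 0) a = 0) :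
    a ∈ Sd B Q M (u 0) := by
  have := h.span (Sd B Q M (u 0) ⊔ F ∙ u m) (fun k hk => by
    by_cases e : k = m
    · exact e ▸ Submodule.mem_sup_right (Submodule.mem_span_singleton_self _)
    · exact Submodule.mem_sup_left (h1 k hk e)) fun v hv => Submodule.mem_sup_left (h2 v hv)
  obtain ⟨s, hs, _, hy, rfl⟩ := Submodule.mem_sup.1 (this.ge (Submodule.mem_top (x := a)))
  obtain ⟨t, rfl⟩ := Submodule.mem_span_singleton.1 hy
  obtain ⟨g, -, hg⟩ := Sd.one hs (h.self 0)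
  have : t = 0 := by simpa [hg.perp, h.ne] using ha
  simpa [this] using hs

theorem le [FiniteDimensional F V] (hG : PolarG B Q G) (hc : c ∈ M) (h1 : Rad B Q (u 0) ⊤ ≤ M) :
    G ≤ M :=
  hG.le_of_move h.sing h1 (pow_mem h.isom m) (pow_mem hc m) (by rw [h.pow, zero_add]; exact h.ne)

theorem ext {g g' : V ≃ₗ[F] V} (h1 : ∀ k < 2 * m, g (u k) = g' (u k))
    (h2 : ∀ v, (∀ k, B (u k) v = 0) → g v = g' v) : g = g' := LinearEquiv.ext fun x =>
  (h.span (LinearMap.eqLocus (g : V →ₗ[F] V) g') h1 h2).ge (Submodule.mem_top (x := x))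

theorem commute {g : V ≃ₗ[F] V} (h1 : ∀ k < 2 * m, ∃ l : F, g (u k) = l • u k)
    (h2 : ∀ v, (∀ k, B (u k) v = 0) → g v = v) : Commute g (c * g * c⁻¹) := by
  have h3 : ∀ k < 2 * m, ∃ l : F, (c * g * c⁻¹) (u k) = l • u k := fun k hk => by
    have key : ∀ k < 2 * m, ∃ l : F, (c * g * c⁻¹) (u (k + 1)) = l • u (k + 1) := fun k hk => by
      obtain ⟨l, e⟩ := h1 k hk
      exact ⟨l, by simp [← h.succ, e]⟩
    rcases k with _ | k
    · obtain ⟨κ, e1, e2⟩ := h.per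
      obtain ⟨l, e⟩ := key (2 * m - 1) (by omega)
      rw [show 2 * m - 1 + 1 = 2 * m by omega, e2, map_smul, smul_comm] at e
      exact ⟨l, smul_right_injective _ e1 e⟩
    · exact key k (by omega)
  have h4 : ∀ v, (∀ k, B (u k) v = 0) → (c * g * c⁻¹) v = v := fun v hv => by
    simp only [LinearEquiv.mul_apply, h2 _ (h.inv_v hv), apply_inv_apply]
  generalize c * g * c⁻¹ = d at h3 h4
  refine h.ext (fun k hk => ?_) fun v hv => by simp [h2 v hv, h4 v hv]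
  obtain ⟨l, e⟩ := h1 k hk
  obtain ⟨l', e'⟩ := h3 k hk
  simp [e, e', smul_comm l]

end Cyc

/-- Two orthogonal hyperbolic pairs. -/
structure Qd (B : V →ₛₗ[σ] V →ₗ[F] F) (Q : V → F) (e f e' f' : V) : Prop where
  qe : Q e = Q 0
  qf : Q f = Q 0
  qe' : Q e' = Q 0
  qf' : Q f' = Q 0
  ne : B e f ≠ 0
  eq : B e' f' = B e f
  ee : B e e' = 0
  ef : B e f' = 0
  fe : B f e' = 0
  ff : B f f' = 0

namespace Qd

variable [FiniteDimensional F V] (hG : PolarG B Q G) {e f e' f' : V} (h : Qd B Q e f e' f')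
include hG h

omit [FiniteDimensional F V] in
theorem symm : Qd B Q e' f' e f :=
  ⟨h.qe', h.qf', h.qe, h.qf, h.eq ▸ h.ne, h.eq.symm, hG.witt.refl h.ee, hG.witt.refl h.fe,
    hG.witt.refl h.ef, hG.witt.refl h.ff⟩

theorem exists_root (t : F) : ∃ g ∈ G, g f = f + t • f' ∧ g e' = e' - σ t • e ∧ g e = e ∧
    g f' = f' ∧ ∀ x, B e x = 0 → B f' x = 0 → g x = x := by
  have hW := hG.witt
  obtain ⟨g, hg, e1⟩ := hW.exists_Rad h.qe (A := Submodule.span F {e, f'})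
    (Submodule.subset_span (by simp)) (y' := f + t • f') h.ne (by simp [h.ef])
    (hW.norm_add_singular (hW.norm_smul_singular h.qf' t) (by simp [h.ff]))
    (by simpa using Submodule.smul_mem _ _ (Submodule.subset_span (by simp)))
  have fix : ∀ x, B e x = 0 → B f' x = 0 → g x = x := fun x h1 h2 =>
    hW.Rad_fix hg (mem_perp_pair.2 ⟨h1, h2⟩)
  refine ⟨g, hG.rad_le' (by rintro rfl; simpa using h.ne) h.qe _ hg, e1, ?_, hg.2.1,
    fix _ h.ef (hW.self_eq_zero h.qf'), fix⟩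
  obtain ⟨k, hk⟩ := Submodule.mem_span_singleton.1 (hg.2.2.1 e' h.ee)
  have := hg.1.1 f e'
  rw [e1, ← add_eq_of_eq_sub' hk] at this
  simp only [map_add, map_smul, LinearMap.map_smulₛₗ, LinearMap.add_apply, LinearMap.smul_apply,
    h.fe, hW.refl h.ef, hW.symm _ _ _ _ h.eq, smul_eq_mul] at this
  have : k = -σ t := mul_right_cancel₀ (mt hW.refl h.ne) (by linear_combination this)
  rw [← add_eq_of_eq_sub' hk, this, neg_smul, sub_eq_add_neg]

theorem exists_n {t : F} (ht : t ≠ 0) : ∃ g ∈ G, g f = t • f' ∧ g f' = -t⁻¹ • f ∧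
    g e = σ t⁻¹ • e' ∧ g e' = -σ t • e ∧
      ∀ x, B e x = 0 → B f x = 0 → B e' x = 0 → B f' x = 0 → g x = x := by
  obtain ⟨g, hg, a1, a2, a3, a4, a5⟩ := h.exists_root hG t
  obtain ⟨g', hg', b1, b2, b3, b4, b5⟩ := (h.symm hG).exists_root hG (-t⁻¹)
  have : σ t ≠ 0 := by simpa
  refine ⟨g * g' * g, mul_mem (mul_mem hg hg') hg, ?_, ?_, ?_, ?_, fun x h1 h2 h3 h4 => by
    simp [a5 x h1 h4, b5 x h3 h2]⟩ <;>
  simp only [LinearEquiv.mul_apply, map_add, map_sub, map_smul, a1, a2, a3, a4, b1, b2, b3, b4,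
    map_neg, map_inv₀] <;> match_scalars <;> field_simp <;> ring

theorem exists_h {t : F} (ht : t ≠ 0) : ∃ g ∈ G, g e = σ t • e ∧ g f = t⁻¹ • f ∧
    g e' = σ t⁻¹ • e' ∧ g f' = t • f' ∧
      ∀ x, B e x = 0 → B f x = 0 → B e' x = 0 → B f' x = 0 → g x = x := by
  obtain ⟨g, hg, a1, a2, a3, a4, a5⟩ := h.exists_n hG ht
  obtain ⟨g', hg', b1, b2, b3, b4, b5⟩ := h.exists_n hG (t := -1) (by simp)
  exact ⟨g * g', mul_mem hg hg', by simp [a4, b3], by simp [a2, b1], by simp [a3, b4],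
    by simp [a1, b2], fun x h1 h2 h3 h4 => by simp [a5 x h1 h2 h3 h4, b5 x h1 h2 h3 h4]⟩

end Qd

theorem exists_cyc [FiniteDimensional F V] (hG : PolarG B Q G) {m : ℕ} {e f : Fin (m + 1) → V}
    (hf : HypFrame B Q e f) {t : V ≃ₗ[F] V} (ht : t ∈ G) {α β : F} (hα : α ≠ 0) (hβ : β ≠ 0)
    (t1 : t (e 0) = α • f 0) (t2 : t (f 0) = β • e 0)
    (t3 : ∀ i, i ≠ 0 → t (e i) = e i ∧ t (f i) = f i) : ∃ c ∈ G, ∃ u, Cyc B Q (m + 1) c u ∧
      (∀ v, (∀ k, B (u k) v = 0) ↔ v ∈ perp B (hypSpan F e f)) ∧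
      ∀ v ∈ perp B (hypSpan F e f), c v = t v := by
  have hW := hG.witt
  have key : ∀ k : Fin (m + 1), ∃ π ∈ G, ∃ ε : F, ε ≠ 0 ∧ π (e k) = ε • e 0 ∧ π (f k) = ε • f 0 ∧
      (∀ i : Fin m, i.val < k → π (e i.castSucc) = e i.succ ∧ π (f i.castSucc) = f i.succ) ∧
      ∀ x, (∀ i ≤ k, B (e i) x = 0 ∧ B (f i) x = 0) → π x = x := fun k => by
    induction k using Fin.induction with
    | zero => exact ⟨1, one_mem _, 1, one_ne_zero, by simp, by simp, by simp, by simp⟩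
    | succ k ih =>
      obtain ⟨π, hπ, ε, h0, h1, h2, h3, h4⟩ := ih
      have n1 : k.castSucc ≠ k.succ := (Fin.castSucc_lt_succ).ne
      obtain ⟨g, hg, a1, a2, a3, a4, a5⟩ := Qd.exists_n hG ⟨hf.qe k.castSucc, hf.qf k.castSucc,
        hf.qe k.succ, hf.qf k.succ, by simp [hf.ef_self], by simp [hf.ef_self], hf.ee _ _,
        hf.ef_ne _ _ n1, hf.fe_ne hW _ _ n1, hf.ff _ _⟩ one_ne_zero
      have fx : ∀ j, k.castSucc < j → π (e j) = e j ∧ π (f j) = f j := fun j hj =>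
        ⟨h4 _ fun i hi => ⟨hf.ee _ _, hf.fe_ne hW _ _ (hi.trans_lt hj).ne⟩,
          h4 _ fun i hi => ⟨hf.ef_ne _ _ (hi.trans_lt hj).ne, hf.ff _ _⟩⟩
      refine ⟨π * g, mul_mem hπ hg, -ε, by simpa, by simp [a4, h1], by simp [a2, h2],
        fun i hi => ?_, fun x hx => ?_⟩
      · by_cases e1 : i = k
        · simp [e1, a3, a1, fx _ Fin.castSucc_lt_succ]
        have n2 : k.castSucc ≠ i.castSucc := by simpa using Ne.symm e1
        have n3 : k.succ ≠ i.castSucc := by simp [Fin.ext_iff] at hi ⊢; omega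
        rw [LinearEquiv.mul_apply, LinearEquiv.mul_apply,
          a5 _ (hf.ee _ _) (hf.fe_ne hW _ _ n2) (hf.ee _ _) (hf.fe_ne hW _ _ n3),
          a5 _ (hf.ef_ne _ _ n2) (hf.ff _ _) (hf.ef_ne _ _ n3) (hf.ff _ _)]
        exact h3 i (by simp [Fin.ext_iff] at hi e1 ⊢; omega)
      · rw [LinearEquiv.mul_apply, a5 x (hx _ Fin.castSucc_lt_succ.le).1
          (hx _ Fin.castSucc_lt_succ.le).2 (hx _ le_rfl).1 (hx _ le_rfl).2]
        exact h4 x fun i hi => hx i (hi.trans Fin.castSucc_lt_succ.le)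
  obtain ⟨π, hπ, ε, h0, h1, h2, h3, h4⟩ := key (Fin.last m)
  have hc := mul_mem ht hπ
  have c1 : ∀ i : Fin m, (t * π) (e i.castSucc) = e i.succ ∧ (t * π) (f i.castSucc) = f i.succ :=
    fun i => by simp [h3 i i.2, t3 _ i.succ_ne_zero]
  have c2 : (t * π) (e (Fin.last m)) = (ε * α) • f 0 := by simp [h1, t1, smul_smul]
  have c3 : (t * π) (f (Fin.last m)) = (ε * β) • e 0 := by simp [h2, t2, smul_smul]
  have c4 : ∀ v ∈ perp B (hypSpan F e f), (t * π) v = t v := fun v hv => by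
    rw [mem_perp_hypSpan] at hv
    rw [LinearEquiv.mul_apply, h4 v fun i _ => ⟨hv.1 i, hv.2 i⟩]
  generalize t * π = c at *
  have sc : ∀ k, c ((c ^ k) (e 0)) = (c ^ (k + 1)) (e 0) := fun k => by rw [pow_succ']; rfl
  have u1 : ∀ k : Fin (m + 1), (c ^ k.val) (e 0) = e k := fun k => by
    induction k using Fin.induction with
    | zero => rfl
    | succ k ih => rw [Fin.val_succ, ← sc, ← (c1 k).1, ← ih]; rfl
  have u2 : ∀ k : Fin (m + 1), (c ^ (m + 1 + k.val)) (e 0) = (ε * α) • f k := fun k => by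
    induction k using Fin.induction with
    | zero => rw [← c2, ← u1 (Fin.last m), sc]; rfl
    | succ k ih => rw [Fin.val_succ, ← add_assoc, ← sc, ← (c1 k).2, ← map_smul, ← ih]; rfl
  have u3 : (c ^ (2 * (m + 1))) (e 0) = (ε * α * (ε * β)) • e 0 := by
    rw [mul_smul, ← c3, ← map_smul, ← u2, sc]; congr; simp; omega
  have n1 : ε * α ≠ 0 := mul_ne_zero h0 hα
  have cs : ∀ k < 2 * (m + 1), (∃ i : Fin (m + 1), k = i.val) ∨
      ∃ i : Fin (m + 1), k = m + 1 + i.val := fun k hk =>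
    if h : k < m + 1 then .inl ⟨⟨k, h⟩, rfl⟩ else .inr ⟨⟨k - (m + 1), by omega⟩, by simp; omega⟩
  have v1 : ∀ v, (∀ k < 2 * (m + 1), B ((c ^ k) (e 0)) v = 0) → v ∈ perp B (hypSpan F e f) :=
    fun v hv => mem_perp_hypSpan.2 ⟨fun i => u1 i ▸ hv _ (by omega), fun i => by
      simpa [u2, n1, -map_mul] using hv (m + 1 + i) (by omega)⟩
  have v2 : ∀ v ∈ perp B (hypSpan F e f), ∀ k, B ((c ^ k) (e 0)) v = 0 := fun v hv k => by
    induction k using Nat.strong_induction_on with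
    | _ k ih =>
    by_cases hk : k < 2 * (m + 1)
    · rw [mem_perp_hypSpan] at hv
      obtain ⟨i, rfl⟩ | ⟨i, rfl⟩ := cs k hk <;> simp [u1, u2, hv]
    obtain ⟨k, rfl⟩ := Nat.exists_eq_add_of_le' (not_lt.1 hk)
    simp [pow_add, u3, ih k (by omega)]
  refine ⟨c, hc, fun k => (c ^ k) (e 0), ⟨hW, hG.le hc, sc, hf.qe 0, fun k hk hk' => ?_,
    by rw [show (c ^ (m + 1)) (e 0) = _ from u2 0]; simpa [hf.ef_self] using n1, ⟨_, by simp [*], u3⟩,
    fun W h1 h2 => ?_⟩, fun v => ⟨fun hv => v1 v fun k _ => hv k, v2 v⟩, c4⟩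
  · obtain ⟨i, rfl⟩ | ⟨i, rfl⟩ := cs k hk
    · simp [u1, hf.ee]
    · simp [u2, hf.ef_ne 0 i (by rintro rfl; simp at hk')]
  · rw [eq_top_iff, ← (hW.isCompl_perp (hf.disjoint hW)).sup_eq_top]
    refine sup_le (Submodule.span_le.2 ?_) fun v hv => h2 v (v2 v hv)
    rintro _ ⟨i | i, rfl⟩
    · simpa [u1] using h1 i (by omega)
    · simpa [u2, W.smul_mem_iff n1] using h1 (m + 1 + i) (by omega)

namespace Cyc

variable [FiniteDimensional F V] {m : ℕ} {c : V ≃ₗ[F] V} {u : ℕ → V} (h : Cyc B Q m c u)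
include h

theorem exists_h (hG : PolarG B Q G) (hm : 2 ≤ m) {t : F} (ht : t ≠ 0) : ∃ g ∈ G,
    Commute g (c * g * c⁻¹) ∧ g (u 0) = σ t • u 0 ∧ (c * g * c⁻¹) (u 0) = t • u 0 ∧
    g (u (m + 1)) = (if m = 2 then t else 1) • u (m + 1) ∧
    (c * g * c⁻¹) (u (m + 1)) = t⁻¹ • u (m + 1) ∧
    ∀ v, (∀ k, B (u k) v = 0) → g v = v ∧ (c * g * c⁻¹) v = v := by
  have p := @h.perp₂
  obtain ⟨g, hg, a1, a2, a3, a4, a5⟩ := Qd.exists_h hG (e := u 0) (f := u m) (e' := u (m - 1))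
    (f' := u (2 * m - 1)) ⟨h.q _, h.q _, h.q _, h.q _, h.ne, by
      rw [← h.shift 0 m (m - 1), zero_add, show m + (m - 1) = 2 * m - 1 by omega], by apply p <;> omega, by apply p <;> omega,
      by apply p <;> omega, by apply p <;> omega⟩ ht
  have a6 : ∀ k < 2 * m, k ≠ 0 → k ≠ m → k ≠ m - 1 → k ≠ 2 * m - 1 → g (u k) = u k :=
    fun k _ _ _ _ _ => a5 _ (by apply p <;> omega) (by apply p <;> omega) (by apply p <;> omega)
      (by apply p <;> omega)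
  have a7 : ∀ v, (∀ k, B (u k) v = 0) → g v = v := fun v hv => a5 v (hv _) (hv _) (hv _) (hv _)
  obtain ⟨κ, e1, e2⟩ := h.per
  refine ⟨g, hg, h.commute (fun k hk => ?_) a7, a1, smul_right_injective _ e1 ?_, ?_,
    by simp [← h.succ, a2], fun v hv => ⟨a7 v hv, by
      simp only [LinearEquiv.mul_apply, a7 _ (h.inv_v hv), apply_inv_apply]⟩⟩
  · by_cases e : k = 0 ∨ k = m ∨ k = m - 1 ∨ k = 2 * m - 1
    · rcases e with rfl | rfl | rfl | rfl
      exacts [⟨_, a1⟩, ⟨_, a2⟩, ⟨_, a3⟩, ⟨_, a4⟩]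
    · exact ⟨1, by rw [one_smul]; apply a6 <;> omega⟩
  · have : u (2 * m) = c (u (2 * m - 1)) := by rw [h.succ]; congr 1; omega
    simp only [← map_smul, smul_comm κ, ← e2]
    simp [this, a4]
  · split_ifs with e
    · subst e; exact a4
    · rw [one_smul]; apply a6 <;> omega

open Pres in
theorem exists_trick (hG : PolarG B Q G) (hm : 2 ≤ m) (hσ : ∀ x, σ (σ x) = x) {ζ : Fˣ}
    (hζ : IsGen ζ) (h1 : ζ ≠ 1) : ∃ g ∈ G, ∀ M : Subgroup (V ≃ₗ[F] V), g ∈ M → ∀ x w,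
      (∀ k, B (u k) w = 0) → Dp B Q (u 0) w x → x * c ∈ M → w ∈ Sd B Q M (u 0) := by
  obtain ⟨g, hg, a1, a2, a3, -, -, a4⟩ := h.exists_h hG hm ζ.ne_zero
  have hi := hG.le hg
  refine ⟨g, hg, fun M hM x w hw hx hc _ => trick_all (P := fun t g => Dp B Q (u 0) (t • w) g)
    (fun a b => by simpa only [add_smul] using a.mul b) (fun a => by simpa only [neg_smul] using a.inv)
    hM hc a1 (l := ζ) (l' := σ ζ) (fun a => ?_) (fun a => ?_) hζ.closure (by simpa)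
    (by simpa [map_eq_one_iff σ σ.injective]) (by simpa)⟩
  · simpa [a4 w hw, hσ, smul_smul] using a.scale hi (by simp) a2
  · simpa [a4 w hw, smul_smul, -LinearEquiv.mul_apply] using
      a.scale (mul_mem (mul_mem h.isom hi) (inv_mem h.isom)) (by simp) a3

end Cyc

end CF.Known.Gen2
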