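import Cfsg.Agent.Known.Gen2.Orth

/-! Generation of the symplectic and unitary groups by two elements. -/

set_option autoImplicit false

namespace CF.Known.Gen2

open Module CF.Geom CF.Classical

variable {F V : Type*} [Field F] [AddCommGroup V] [Module F V] {σ : F →+* F}
  {B : V →ₛₗ[σ] V →ₗ[F] F} {ε : F} {G M : Subgroup (V ≃ₗ[F] V)} {e f p w a a' : V}
  {g : V ≃ₗ[F] V} [FiniteDimensional F V]

section eh

variable (hE : EH B ε)
include hE

omit [FiniteDimensional F V] in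
theorem dp_rd (he : B e e = 0) (ha : B e a = 0) {γ : F} (hc : ε * γ + σ γ = B a a) :
    Dp B (fun x => B x x) e a (rd B ε e a γ) :=
  ⟨hE.rd_mem_UG he ha hc, he, ha, fun x =>
    ⟨-(ε * B a x) - γ * B e x, by rw [hE.rd_apply he ha]; module⟩⟩

theorem Sd.rq (h : a ∈ Sd B (fun x => B x x) M e) (he : B e e = 0) (h0 : e ≠ 0) :
    RQ B ε M e a := by
  obtain ⟨g, hM, h⟩ := Sd.one h he
  obtain ⟨w, -, γ, h1, h2, rfl⟩ := hE.exists_eq_rd h0 he (A := ⊤) (g := g) ⟨h.isom, by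
    obtain ⟨k, e1, e2⟩ := h.apply hE.witt h0 he
    simp [e1, e2.2 (hE.refl h.perp)], fun x hx => by
    obtain ⟨k, e1, -⟩ := h.apply hE.witt h0 hx
    simpa [e1] using Submodule.smul_mem _ _ (Submodule.mem_span_singleton_self e), fun _ => trivial⟩
  obtain ⟨y, -, hy⟩ := hE.witt.exists_hyperbolic h0 (by simpa using he)
  obtain ⟨k, e1⟩ := h.disp y
  rw [hE.rd_apply he h1, hy] at e1
  exact hE.rq_congr he ⟨h1, γ, h2, hM⟩ (-(ε * B w y) - γ - k) (by linear_combination (norm := module) -e1)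

theorem Sd.centre (h : a ∈ Sd B (fun x => B x x) M e) (h' : a' ∈ Sd B (fun x => B x x) M e)
    (he : B e e = 0) (h0 : e ≠ 0) (h1 : B a a' ≠ 0) (b : F) : rd B ε e 0 (ε * b - σ b) ∈ M := by
  obtain ⟨ha, c1, -, h2⟩ := Sd.rq hE h he h0
  obtain ⟨ha', c2, -, h3⟩ := Sd.rq hE (Submodule.smul_mem _ (b / B a a') h') he h0
  have := mul_mem (mul_mem h2 h3) (inv_mem (mul_mem h3 h2))
  rw [hE.rd_mul he ha ha', hE.rd_mul he ha' ha, add_comm _ a,
    hE.rd_div he (by rw [map_add, ha, ha', add_zero])] at this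
  convert this using 2
  have e : B a ((b / B a a') • a') = b := by simp [h1]
  rw [hE.symm a, e]
  linear_combination (σ b) * hE.sq

omit [FiniteDimensional F V] in
theorem rd_swap (he : B e e = 0) (hp : B p p = 0) (h : B e p = 0) (t : F) :
    rd B ε e (t • p) 0 = rd B ε p ((-ε * σ t) • e) 0 := by
  ext x
  rw [hE.rd_apply he (by simp [h]), hE.rd_apply hp (by simp [hE.refl h])]
  simp only [LinearMap.map_smulₛₗ, LinearMap.smul_apply, smul_eq_mul, map_mul, map_neg, hE.invol,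
    hE.fix]
  match_scalars <;> first | linear_combination (-t * B e x) * hE.sq | ring

omit [FiniteDimensional F V] in
theorem exists_flip (hG : PolarG B (fun x => B x x) G) (he : B e e = 0) (hf : B f f = 0)
    (hef : B e f = 1) {a : F} (ha : a ≠ 0) (h : ε * a + σ a = 0) : ∃ g ∈ G,
      g e = a⁻¹ • f ∧ g f = -a • e ∧ ∀ x, B e x = 0 → B f x = 0 → g x = x := by
  have h1 := hE.rd_mem hG he (map_zero _) (by simpa using h)
  have n := hE.ne_zero
  have h2 := hE.rd_mem hG hf (map_zero _) (c := -ε / a) (by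
    rw [map_div₀, map_neg, hE.fix, eq_neg_of_add_eq_zero_right h, map_zero]
    field_simp
    linear_combination -hE.sq)
  have hfe : B f e = ε := by rw [hE.symm, hef, map_one, mul_one]
  refine ⟨_, mul_mem (mul_mem h1 h2) h1, ?_, ?_, fun x h1 h2 => by
    simp [hE.tv_apply he, hE.tv_apply hf, h1, h2]⟩ <;>
  simp only [LinearEquiv.mul_apply, hE.tv_apply he, hE.tv_apply hf, he, hf, hef, hfe, map_sub,
    map_smul, smul_eq_mul] <;> match_scalars <;> field_simp <;>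
  grind [hE.sq]

omit [FiniteDimensional F V] in
theorem rd_scale (hg : g ∈ UG B) (he : B e e = 0) (ha : B e a = 0) {l l' : F}
    (h1 : g e = l • e) (h2 : g a = l' • a) (t γ : F) :
    g * rd B ε e (t • a) γ * g⁻¹ = rd B ε e ((σ l * l' * t) • a) (l * σ l * γ) := by
  rw [hE.conj_rd hg he (by simp [ha]), h1, map_smul, h2, hE.rd_smul he (by simp [ha]), smul_smul,
    smul_smul, mul_right_comm]

theorem exists_cyc_eh (hG : PolarG B (fun x => B x x) G) {m : ℕ} {e f : Fin (m + 1) → V}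
    (hf : HypFrame B (fun x => B x x) e f) {a : F} (ha : a ≠ 0) (h : ε * a + σ a = 0) :
    ∃ c ∈ G, ∃ u, Cyc B (fun x => B x x) (m + 1) c u ∧
      (∀ v, (∀ k, B (u k) v = 0) ↔ v ∈ perp B (hypSpan F e f)) ∧
      ∀ v, (∀ k, B (u k) v = 0) → c v = v := by
  obtain ⟨t, ht, t1, t2, t3⟩ := exists_flip hE hG (hf.ee 0 0) (hf.ff 0 0) (hf.ef_self 0) ha h
  obtain ⟨c, hc, u, h1, h2, h3⟩ := exists_cyc hG hf ht (inv_ne_zero ha) (neg_ne_zero.2 ha) t1 t2
    fun i hi => ⟨t3 _ (hf.ee _ _) (hf.fe_ne hE.witt _ _ hi.symm),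
      t3 _ (hf.ef_ne _ _ hi.symm) (hf.ff _ _)⟩
  exact ⟨c, hc, u, h1, h2, fun v hv => (h3 v ((h2 v).1 hv)).trans (t3 v
    ((mem_perp_hypSpan.1 ((h2 v).1 hv)).1 0) ((mem_perp_hypSpan.1 ((h2 v).1 hv)).2 0))⟩

namespace Cyc

variable {m : ℕ} {c : V ≃ₗ[F] V} {u : ℕ → V} (h : Cyc B (fun x => B x x) m c u)
  (hG : PolarG B (fun x => B x x) G)
include h

omit [FiniteDimensional F V] hE in
theorem p01 (hm : 2 ≤ m) : B (u 0) (u (m + 1)) = 0 := by apply h.perp₂ <;> omega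

omit [FiniteDimensional F V] in
theorem allE (hm : 2 ≤ m) (hc : c ∈ M) (h1 : ∀ t : F, rd B ε (u 0) (t • u (m + 1)) 0 ∈ M) :
    ∀ k < 2 * m, k ≠ m → u k ∈ Sd B (fun x => B x x) M (u 0) := by
  have n : B (u (m - 1)) (u 0) = 0 := by apply h.perp₂ <;> omega
  refine h.allU hc (fun _ t => ⟨_, h1 t, dp_rd hE (h.self _) (by simp [h.p01 hm])
    (by simp [h.self])⟩) fun _ t => ⟨_, ?_, dp_rd hE (γ := 0) (h.self _) (by simp [hE.refl n])
    (by simp [h.self])⟩
  obtain ⟨κ, e1, e2⟩ := h.per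
  have := hE.rd_conj_mem (pow_mem h.isom (m - 1)) (pow_mem hc _) (h.self _) (by simp [h.p01 hm])
    (h1 (-ε * σ t / κ))
  rwa [map_smul, h.pow' (k := m + 1) (l := 2 * m) (by omega), h.pow, e2, smul_smul, div_mul_cancel₀ _ e1,
    zero_add, ← rd_swap hE (h.self _) (h.self _) (hE.refl n)] at this

include hG

theorem le_eh (hc : c ∈ M) (h1 : ∀ k < 2 * m, k ≠ m → u k ∈ Sd B (fun x => B x x) M (u 0))
    (h2 : ∀ v, (∀ k, B (u k) v = 0) → v ∈ Sd B (fun x => B x x) M (u 0))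
    (h3 : ∀ γ, ε * γ + σ γ = 0 → rd B ε (u 0) 0 γ ∈ M) : G ≤ M :=
  h.le hG hc (hE.rad_le_of (h.self 0) (h.ne_zero 0)
    (fun _ ha => Sd.rq hE (h.mem_Sd h1 h2 ha) (h.self 0) (h.ne_zero 0)) h3)

theorem le_ex (hm : 2 ≤ m) (hc : c ∈ M) (h1 : ∀ t : F, rd B ε (u 0) (t • u (m + 1)) 0 ∈ M)
    (h2 : ∀ v, (∀ k, B (u k) v = 0) → v = 0)
    (h3 : (∀ γ, ε * γ + σ γ = 0 → ∃ b, γ = ε * b - σ b) ∨ ∀ γ, rd B ε (u 0) 0 γ ∈ M) : G ≤ M := by
  have := h.allE hE hm hc h1
  refine h.le_eh hE hG hc this (fun v hv => h2 v hv ▸ zero_mem _) fun γ hγ => h3.elim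
    (fun h3 => ?_) (· γ)
  obtain ⟨b, rfl⟩ := h3 γ hγ
  exact Sd.centre hE (this 1 (by omega) (by omega)) (this (m + 1) (by omega) (by omega)) (h.self _)
    (h.ne_zero _) (h.ne₂ (by omega)) b

omit [FiniteDimensional F V] hG in
theorem ex_of_trick (hm : 2 ≤ m) (hg : g ∈ UG B) (hM : g ∈ M) {γ : F}
    (hx : rd B ε (u 0) (u (m + 1)) γ * c ∈ M) (hc : Commute g (c * g * c⁻¹)) {l l' n n' : F}
    (a1 : g (u 0) = l • u 0) (a2 : g (u (m + 1)) = l' • u (m + 1))
    (a3 : (c * g * c⁻¹) (u 0) = n • u 0) (a4 : (c * g * c⁻¹) (u (m + 1)) = n' • u (m + 1))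
    (hγ : n * σ n * γ = γ) (h1 : σ l * l' ≠ 1) (h2 : σ n * n' ≠ 1)
    (h3 : AddSubgroup.closure (Set.range fun i : ℕ => (σ l * l') ^ i) = ⊤) (t : F) :
    rd B ε (u 0) (t • u (m + 1)) 0 ∈ M := by
  have p := h.p01 hm
  have add (t t' γ γ' : F) : rd B ε (u 0) (t • u (m + 1)) γ * rd B ε (u 0) (t' • u (m + 1)) γ' =
      rd B ε (u 0) ((t + t') • u (m + 1)) (γ + γ') := by
    rw [hE.rd_mul (h.self _) (by simp [p]) (by simp [p]), add_smul]; simp [h.self]
  have neg (t γ : F) : (rd B ε (u 0) (t • u (m + 1)) γ)⁻¹ =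
      rd B ε (u 0) ((-t) • u (m + 1)) (-γ) := by
    rw [hE.rd_inv (h.self _) (by simp [p]), neg_smul]; simp [h.self]
  have s1 := rd_scale hE hg (h.self _) p a1 a2
  have s2 := rd_scale hE (mul_mem (mul_mem h.isom hg) (inv_mem h.isom)) (h.self _) p a3 a4
  have := trick hM hx hc
  rw [← one_smul F (u (m + 1)), neg, s1, s2, s2, s1, add, add, add] at this
  obtain ⟨_, e1, rfl⟩ := spread (P := fun t g => g = rd B ε (u 0) (t • u (m + 1)) 0)
    (by rintro _ _ _ _ rfl rfl; rw [add, add_zero]) (by rintro _ _ rfl; rw [neg, neg_zero]) hM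
    (by rintro _ _ rfl; rw [s1, mul_zero]) h3 this (by
      congr 1; linear_combination (1 - l * σ l) * hγ)
    (fun e => mul_ne_zero (sub_ne_zero.2 h1) (sub_ne_zero.2 h2) (by linear_combination -e)) t
  exact e1

end Cyc

end eh

section su

variable [Finite F] (hH : IsHerm B) (hB : B.Nondegenerate)
include hH hB

omit [FiniteDimensional F V] hB in
theorem gen_herm {ζ : Fˣ} (hζ : Pres.IsGen ζ) : σ ζ ≠ ζ ∧ (ζ : F) ^ 2 ≠ 1 := by
  have h1 : σ ζ ≠ ζ := fun e => hH.ne_id (RingHom.ext fun x => by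
    by_cases hx : x = 0
    · simp [hx]
    obtain ⟨k, rfl⟩ := hζ.exists_pow hx
    simp [e])
  refine ⟨h1, fun e => h1 ?_⟩
  rcases sq_eq_sq_iff_eq_or_eq_neg.1 (e.trans (one_pow 2).symm) with e | e <;> simp [e]

theorem two_su {n : ℕ} (hn : 4 ≤ n) (hd : finrank F V = n) : Two (SUG B) := by
  have hE := eh_herm hH hB
  obtain ⟨m, e, f, hf, -, h1, h2⟩ := exists_witt_decomp_herm hH hB
  obtain ⟨m, rfl⟩ : ∃ k, m = k + 1 := ⟨m - 1, by omega⟩
  have hG := polarG_su hH hB (e := e 0) (fun e1 => by simpa [e1] using hf.ef_self 0) (hf.ee 0 0)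
  obtain ⟨a, ha, a0⟩ := exists_skew_ne_zero hH.ne_id hH.invol
  obtain ⟨c, hc, u, h, h3, h4⟩ := exists_cyc_eh hE hG hf ha (by simp [a0])
  obtain ⟨ζ, hζ⟩ := Pres.exists_isGen F
  obtain ⟨z1, z2⟩ := gen_herm hH hζ
  have z3 : ζ ≠ 1 := by rintro rfl; simp at z1
  have h5 := hf.finrank_perp hE.witt
  rw [Fintype.card_fin] at h5
  have hm : 2 ≤ m + 1 := by omega
  rcases h2.eq_or_lt with h2 | h2
  · have h6 : ∀ v, (∀ k, B (u k) v = 0) → v = 0 := fun v hv => by
      have := (h3 v).1 hv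
      rwa [Submodule.finrank_eq_zero.1 (show finrank F (perp B (hypSpan F e f)) = 0 by omega)] at this
    obtain ⟨g, hg, a1, a2, a3, a4, a5, -⟩ := h.exists_h hG hm ζ.ne_zero
    refine ⟨g, hg, _, mul_mem (hE.rd_mem hG (h.self 0) (h.p01 hm) (c := 0) (by simp [h.self])) hc,
      fun M e1 e2 => ?_⟩
    have := h.ex_of_trick hE hm hg.1 e1 e2 a1 a2 a4 a3 a5 (by simp)
      (by split_ifs <;> simp only [hH.invol, ← sq, mul_one]; exacts [z2, by simpa]) (by simpa [mul_inv_eq_one₀])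
      (by split_ifs <;> simp only [hH.invol, ← sq, mul_one, hζ.closure, hζ.closure_sq])
    exact h.le_ex hE hG hm ((mul_mem_cancel_left (by simpa using this 1)).1 e2) this h6
      (.inl (herm_skew hH))
  obtain ⟨v, hv, v0⟩ := exists_noniso_nd hH hB (hf.disjoint hE.witt) (by omega)
  have h6 : F ∙ v = perp B (hypSpan F e f) := Submodule.eq_of_le_of_finrank_eq
    (by simpa) (by rw [finrank_span_singleton (by rintro rfl; simp at v0)]; omega)
  replace hv := (h3 v).2 hv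
  obtain ⟨γ, hγ⟩ := hE.ex v
  obtain ⟨g, hg, a1⟩ := h.exists_trick hG hm hH.invol hζ z3
  refine ⟨g, hg, _, mul_mem (hE.rd_mem hG (h.self 0) (hv 0) hγ) hc, fun M e1 e2 => ?_⟩
  have e3 := a1 M e1 _ v hv (dp_rd hE (h.self 0) (hv 0) hγ) e2
  have e4 : ∀ γ, 1 * γ + σ γ = 0 → rd B 1 (u 0) 0 γ ∈ M := fun γ hγ => by
    obtain ⟨b, rfl⟩ := herm_skew hH γ hγ
    exact Sd.centre hE e3 e3 (h.self 0) (h.ne_zero 0) v0 b
  obtain ⟨-, γ', e5, e6⟩ := Sd.rq hE e3 (h.self 0) (h.ne_zero 0)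
  have e7 := mul_mem (e4 (γ - γ') (by rw [map_sub]; linear_combination hγ - e5)) e6
  rw [← hE.rd_div (h.self 0) (hv 0), inv_mul_cancel_right] at e7
  replace e2 := (mul_mem_cancel_left e7).1 e2
  have e8 : ∀ k, (c ^ k) v = v := fun k => by
    induction k with
    | zero => rfl
    | succ k ih => rw [pow_succ, LinearEquiv.mul_apply, h4 v hv, ih]
  exact h.le_eh hE hG e2 (fun k _ _ => Sd.step h.witt e3 (e8 k ▸ h.sd_shift e2 e3 k) (h.ne_zero _)
    (h.self _) (by apply h.perp₂ <;> omega) (hE.refl (hv 0)) (hv k) v0)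
    (fun x hx => (Submodule.span_singleton_le_iff_mem _ _).2 e3 (h6.ge ((h3 x).1 hx))) e4

end su

theorem RGen2.two {k : ℕ} (h : RGen2 G k) : Two G := by
  obtain ⟨u, hu, g, hg, -, -, -, -, h⟩ := h
  have := mul_mem (mul_mem hg hu) (inv_mem hg)
  exact ⟨u, hu, _, this, fun M h1 h2 => (h (M ⊓ G) inf_le_right ⟨h1, hu⟩ ⟨h2, this⟩).trans
    inf_le_left⟩

section sp

variable {B : LinearMap.BilinForm F V} (hE : EH B (-1)) {m : ℕ} {c : V ≃ₗ[F] V} {u : ℕ → V}
  (h : Cyc B (fun x => B x x) m c u) (hG : PolarG B (fun x => B x x) (UG B)) (hm : 2 ≤ m)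
  (h0 : ∀ v, (∀ k, B (u k) v = 0) → v = 0)
include hE h hG hm h0

omit [FiniteDimensional F V] hm h0 in
theorem Cyc.exists_d {t : F} (ht : t ≠ 0) : ∃ g ∈ UG B, g (u 0) = t • u 0 ∧ g (u m) = t⁻¹ • u m ∧
    ∀ x, B (u 0) x = 0 → B (u m) x = 0 → g x = x := by
  have n := h.ne
  have e1 : B (u 0) ((B (u 0) (u m))⁻¹ • u m) = 1 := by simp [n]
  obtain ⟨g, hg, a1, a2, a3⟩ := exists_flip hE hG (h.self 0) (by simp [h.self]) e1 ht (by simp)
  obtain ⟨g', hg', b1, b2, b3⟩ := exists_flip hE hG (h.self 0) (by simp [h.self]) e1 (a := -1)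
    (by simp) (by simp)
  refine ⟨_, mul_mem hg hg', by rw [LinearEquiv.mul_apply, b1, map_smul, a2]; simp,
    smul_right_injective V (inv_ne_zero n) ?_, fun x h1 h2 => by
      simp [a3 x h1 (by simp [h2]), b3 x h1 (by simp [h2])]⟩
  simp only [← map_smul, LinearEquiv.mul_apply, b2, neg_neg, one_smul, a1, smul_comm t⁻¹]

theorem Cyc.two_sp [Finite F] (h2 : Nat.card F ≠ 2) : Two (UG B) := by
  have p := @h.perp₂
  obtain ⟨ζ, hζ⟩ := Pres.exists_isGen F
  have z1 : (ζ : F) ≠ 1 := by simpa using IsGen.ne_one hζ h2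
  obtain ⟨g, hg, a1, a2, a3⟩ := h.exists_d hE hG ζ.ne_zero
  have a4 : ∀ k < 2 * m, k ≠ 0 → k ≠ m → g (u k) = u k := fun k _ _ _ =>
    a3 _ (by apply p <;> omega) (by apply p <;> omega)
  obtain ⟨κ, k1, k2⟩ := h.per'
  have a5 : ∀ i k, (c ^ i * g * (c ^ i)⁻¹) (u (k + i)) = (c ^ i) (g (u k)) := fun i k => by
    simp [← h.pow i k]
  have a6 : ∀ i, 0 < i → i < m → (c ^ i * g * (c ^ i)⁻¹) (u 0) = u 0 := fun i _ _ =>
    smul_right_injective V k1 (by
      simp only [← map_smul, ← k2]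
      rw [show 0 + 2 * m = 2 * m - i + i by omega, a5, a4 _ (by omega) (by omega) (by omega), h.pow])
  have key : ∀ M : Subgroup (V ≃ₗ[F] V), g ∈ M → ∀ γ, rd B (-1) (u 0) (u (m + 1)) γ * c ∈ M →
      ∀ t : F, rd B (-1) (u 0) (t • u (m + 1)) 0 ∈ M := fun M e1 γ e2 =>
    h.ex_of_trick hE hm hg e1 e2 (h.commute (fun k hk => by
      by_cases e : k = 0 ∨ k = m
      · rcases e with rfl | rfl
        exacts [⟨_, a1⟩, ⟨_, a2⟩]
      · exact ⟨1, by rw [one_smul]; apply a4 <;> omega⟩) fun v hv => a3 v (hv _) (hv _))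
      a1 (l' := 1) (by rw [one_smul]; apply a4 <;> omega) (n := 1) (by simpa using a6 1 one_pos hm)
      (n' := (ζ : F)⁻¹) (by simp [← h.succ, a2]) (by simp) (by simpa using z1) (by simpa using z1)
      (by simpa using hζ.closure)
  have mem (γ : F) := mul_mem (hE.rd_mem hG (h.self 0) (h.p01 hm) (c := γ) (by simp [h.self])) h.isom
  by_cases h3 : (2 : F) = 0; swap
  · exact ⟨g, hg, _, mem 0, fun M e1 e2 => h.le_ex hE hG hm ((mul_mem_cancel_left
      (by simpa using key M e1 0 e2 1)).1 e2) (key M e1 0 e2) h0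
      (.inl fun γ _ => ⟨-γ / 2, by simp only [RingHom.id_apply]; field_simp; ring⟩)⟩
  refine ⟨g, hg, _, mem 1, fun M e1 e2 => ?_⟩
  have e3 := key M e1 1 e2
  have e4 : rd B (-1) (u 0) (u (m + 1)) 0 * rd B (-1) (u 0) 0 1 = rd B (-1) (u 0) (u (m + 1)) 1 := by
    rw [hE.rd_mul (h.self 0) (h.p01 hm) (map_zero _)]; simp
  rw [← e4, mul_assoc, mul_mem_cancel_left (by simpa using e3 1)] at e2
  have s1 {d : V ≃ₗ[F] V} (hd : d ∈ UG B) {l : F} (e : d (u 0) = l • u 0) (γ : F) :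
      d * rd B (-1) (u 0) 0 γ * d⁻¹ = rd B (-1) (u 0) 0 (l ^ 2 * γ) := by
    simpa [sq] using rd_scale hE hd (h.self 0) (map_zero _) e (l' := 0) (by simp) 0 γ
  have hd (i : ℕ) : c ^ i * g * (c ^ i)⁻¹ ∈ UG B :=
    mul_mem (mul_mem (pow_mem h.isom i) hg) (inv_mem (pow_mem h.isom i))
  have s2 (i : ℕ) (hi : c ^ i * g * (c ^ i)⁻¹ ∈ M) : rd B (-1) (u 0) 0 1 *
      (c ^ (i + 1) * g * (c ^ (i + 1))⁻¹) * (rd B (-1) (u 0) 0 1)⁻¹ ∈ M := by
    convert mul_mem (mul_mem e2 hi) (inv_mem e2) using 1; group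
  have s3 : ∀ i < m, c ^ i * g * (c ^ i)⁻¹ ∈ M := fun i hi => by
    induction i with
    | zero => simpa
    | succ i ih =>
      have := s1 (hd (i + 1)) (l := 1) (by simpa using a6 _ i.succ_pos hi) 1
      rw [one_pow, one_mul, mul_inv_eq_iff_eq_mul] at this
      simpa only [← this, mul_inv_cancel_right] using s2 i (ih (by omega))
  have add (γ γ' : F) : rd B (-1) (u 0) 0 γ * rd B (-1) (u 0) 0 γ' = rd B (-1) (u 0) 0 (γ + γ') := by
    simp [hE.rd_mul (h.self 0)]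
  have neg (γ : F) : (rd B (-1) (u 0) 0 γ)⁻¹ = rd B (-1) (u 0) 0 (-γ) := by
    simp [hE.rd_inv (h.self 0)]
  have s4 : c ^ m * g * (c ^ m)⁻¹ = g⁻¹ := by
    rw [eq_inv_iff_mul_eq_one]
    refine h.ext (fun k hk => ?_) fun v hv => by simp [h0 v hv]
    by_cases e : k = 0 ∨ k = m
    · rcases e with rfl | rfl
      · refine smul_right_injective V k1 ?_
        simp only [LinearEquiv.mul_apply _ g, a1, map_smul, smul_comm κ, ← map_smul _ κ, ← k2]
        rw [show 0 + 2 * m = m + m by ring, a5, a2, map_smul, h.pow]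
        simp
      · simp only [LinearEquiv.mul_apply _ g, a2, map_smul]
        rw [← h.pow' (zero_add k)]
        simp [a1]
    rw [LinearEquiv.mul_apply _ g, a4 k hk (by omega) (by omega)]
    rcases lt_or_gt_of_ne (show k ≠ m by omega) with e' | e'
    · refine smul_right_injective V k1 ?_
      simp only [← map_smul, ← k2, LinearEquiv.coe_one, id]
      rw [show k + 2 * m = k + m + m by ring, a5, a4 _ (by omega) (by omega) (by omega), h.pow]
    · obtain ⟨j, rfl⟩ := Nat.exists_eq_add_of_le' e'.le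
      rw [a5, a4 _ (by omega) (by omega) (by omega), h.pow]; rfl
  have s5 := mul_mem e1 (s2 (m - 1) (s3 _ (by omega)))
  rw [show m - 1 + 1 = m by omega, s4, ← mul_assoc, ← mul_assoc, s1 hg a1, neg, add] at s5
  have s6 (γ : F) : rd B (-1) (u 0) 0 γ ∈ M := by
    obtain ⟨_, e, rfl⟩ := spread (P := fun t g => g = rd B (-1) (u 0) 0 t)
      (by rintro _ _ _ _ rfl rfl; rw [add]) (by rintro _ _ rfl; rw [neg]) e1
      (by rintro _ _ rfl; rw [s1 hg a1]) hζ.closure_sq s5 rfl (fun e => sub_ne_zero.2 z1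
        (pow_eq_zero_iff two_ne_zero |>.1 (by linear_combination e + (1 - ζ) * h3))) γ
    exact e
  exact h.le_ex hE hG hm ((mul_mem_cancel_left (s6 1)).1 e2) e3 h0 (.inr s6)

omit hm in
theorem Cyc.two_sp_two (hm : 3 ≤ m) (hF : ∀ x : F, x ≠ 0 → x = 1) : Two (UG B) := by
  have p := @h.perp₂
  have h2 : (1 + 1 : F) = 0 := by_contra fun e => by simpa using hF _ e
  have h3 (x : F) : -x = x := by linear_combination (-x) * h2
  have h4 (x : V) : x + x = 0 := by simpa [add_smul] using congrArg (· • x) h2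
  have n {i j : ℕ} (e : j = i + m ∨ i = j + m) := hF _ (h.ne₂ e)
  obtain ⟨κ, k1, k2⟩ := h.per'
  have hx := hE.rd_mem_UG (h.self 0) (h.p01 (by omega)) (c := 1) (by simp [h.self])
  refine ⟨_, hx, c, h.isom, fun M e1 e2 => ?_⟩
  let R (a : V) (γ : F) : Prop := B (u 0) a = 0 ∧ rd B (-1) (u 0) a γ ∈ M
  have add {a a' b : V} {γ γ' δ : F} (x : R a γ) (y : R a' γ') (e : a + a' = b)
      (e' : γ + γ' + B a a' = δ) : R b δ := ⟨by simp [← e, x.1, y.1], by
    have := mul_mem x.2 y.2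
    rwa [hE.rd_mul (h.self 0) x.1 y.1, e, neg_one_mul, h3 (B a a'), e'] at this⟩
  have mv (k : ℕ) {a : V} {γ : F} (x : R a γ) (a1 : B (u k) (u 0) = 0)
      (a2 : B (u (m + 1 + k)) (u 0) = 0) : R (a + B (u k) a • u (m + 1 + k) +
        (B (u (m + 1 + k)) a + B (u k) a) • u k) γ := by
    have b1 := hE.rd_conj_mem (pow_mem h.isom k) (pow_mem e2 k) (h.self 0) (h.p01 (by omega)) e1
    rw [h.pow, h.pow, zero_add] at b1
    have b2 : B (u k) (u (m + 1 + k)) = 0 := by apply p <;> omega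
    have b3 := hE.rd_conj_mem (hE.rd_mem_UG (h.self k) b2 (by simp [h.self])) b1 (h.self 0) x.1 x.2
    rw [hE.rd_fix (h.self k) b2 _ a1 a2, hE.rd_apply (h.self k) b2] at b3
    refine ⟨by simp [x.1, hE.refl a1, hE.refl a2], ?_⟩
    convert b3 using 2
    simp only [sub_eq_add_neg, ← neg_smul, neg_mul, one_mul, neg_neg, add_smul, add_assoc]
    rw [h3]
  have m1 {a : V} {γ : F} (x : R a γ) := mv 1 x (by apply p <;> omega) (by apply p <;> omega)
  have m2 {a : V} {γ : F} (x : R a γ) := mv (m + 1) x (by apply p <;> omega) (by apply p <;> omega)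
  rw [show m + 1 + (m + 1) = 2 + 2 * m by ring, k2, hF κ k1, one_smul] at m2
  have t1 : B (u 1) (u (m + 1)) = 1 := n (by omega)
  have t2 : B (u (m + 1)) (u 1) = 1 := n (by omega)
  have t3 : B (u 2) (u (m + 1 + 1)) = 1 := n (by omega)
  have t4 : B (u (m + 1 + 1)) (u 2) = 1 := n (by omega)
  have t5 : B (u 1) (u 2) = 0 := by apply p <;> omega
  have t6 : B (u 1) (u (m + 1 + 1)) = 0 := by apply p <;> omega
  have t7 : B (u (m + 1)) (u 2) = 0 := by apply p <;> omega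
  have t8 : B (u (m + 1)) (u (m + 1 + 1)) = 0 := by apply p <;> omega
  have t9 := And.intro (And.intro (hE.refl t5) (hE.refl t6)) (And.intro (hE.refl t7) (hE.refl t8))
  have s := And.intro (h.self 1) (And.intro (h.self 2) (And.intro (h.self (m + 1))
    (h.self (m + 1 + 1))))
  have r0 : R (u (m + 1)) 1 := ⟨h.p01 (by omega), e1⟩
  have r1 : R (u (m + 1 + 1) + u 1) 1 := add (m1 r0) r0 (by
    simp only [*]; linear_combination (norm := module) h4 (u (m + 1))) (by simp [*])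
  have r2 : R (u 2) 1 := add (m2 r1) r1 (by
    simp only [map_add, add_zero, zero_add, *]
    linear_combination (norm := module) h4 (u (m + 1 + 1)) + h4 (u 1)) (by simp [*])
  have r3 : R (u 1) 0 := add (m1 r2) r2 (by
    simp only [*]; linear_combination (norm := module) h4 (u 2)) (by simp [*])
  have r4 : R (u 2 + u (m + 1)) 1 := add (m2 r3) r3 (by
    simp only [*]; linear_combination (norm := module) h4 (u 1)) (by simp [*])
  have r5 : R (u (m + 1)) 0 := add r4 r2 (by linear_combination (norm := module) h4 (u 2))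
    (by simp [*])
  have r6 : R 0 1 := add r5 r0 (h4 _) (by simp [*])
  have z := hE.rd_zero (h.self 0)
  refine h.le_ex hE hG (by omega) e2 (fun t => ?_) h0 (.inr fun t => ?_) <;>
  obtain rfl | rfl := (em (t = 0)).imp_right (hF t) <;> simp [z, r5.2, r6.2]

end sp

theorem two_sp [Finite F] {B : LinearMap.BilinForm F V} (hB : B.Nondegenerate) (hA : B.IsAlt)
    {m : ℕ} (hd : finrank F V = 2 * m) (hm : 2 ≤ m) (h2 : m = 2 → Nat.card F ≠ 2) :
    Two (SpG B) := by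
  have hE := eh_alt hB hA
  have hG := polarG_alt hB hA
  obtain ⟨k, e, f, hf, h1⟩ := exists_symp_frame hB hA
  obtain rfl : k = m := by omega
  obtain ⟨m, rfl⟩ : ∃ m, k = m + 1 := ⟨k - 1, by omega⟩
  rw [← show (fun x => B x x) = fun _ => 0 from funext hA.self_eq_zero] at hf
  obtain ⟨c, -, u, h, h3, -⟩ := exists_cyc_eh hE hG hf one_ne_zero (by simp)
  have h0 : ∀ v, (∀ k, B (u k) v = 0) → v = 0 := fun v hv => by
    simpa [hf.hypSpan_eq_top hE.witt (by simpa using h1), hE.witt.perp_top] using (h3 v).1 hv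
  rw [← ug_eq_spG hA]
  by_cases h4 : Nat.card F = 2
  · refine h.two_sp_two hE hG h0 (by have := mt h2 (not_not.2 h4); omega) fun x hx => ?_
    obtain ⟨y, -, hy⟩ := (Nat.card_eq_two_iff' (0 : F)).1 h4
    rw [hy x hx, hy 1 one_ne_zero]
  · exact h.two_sp hE hG hm h0 h4

theorem two_PSp (F : Type*) [Field F] [Fintype F] {m : ℕ} (hm : 2 ≤ m)
    (h : m = 2 → Fintype.card F ≠ 2) : ∃ a b : Cfsg.PSp m F, Subgroup.closure {a, b} = ⊤ :=
  (two_sp (sympBilin_nondegenerate (F := F) m) (sympBilin_isAlt m) (by simp [two_mul]) hm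
    (by simpa using h)).transfer (spEquiv m F) (QuotientGroup.mk' _) (QuotientGroup.mk'_surjective _)

theorem two_PSU {F : Type*} [Field F] [Fintype F] {q n : ℕ} (hF : Fintype.card F = q ^ 2)
    (hn : 3 ≤ n) (h : n = 3 → q ≠ 2) : ∃ a b : Cfsg.PSU n F q, Subgroup.closure {a, b} = ⊤ := by
  obtain ⟨σ, h1, h2, h3⟩ := exists_conj hF
  have hU : UQ (hermSesq (Fin n) σ) q :=
    ⟨⟨h2, h3, hermSesq_isSymm h3⟩, hermSesq_nondegenerate σ, by simpa using hF, h1⟩
  refine Two.transfer ?_ (suEquiv n h1) (QuotientGroup.mk' _) (QuotientGroup.mk'_surjective _)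
  rcases hn.eq_or_lt with rfl | h4
  · exact RGen2.two (su3_gen hU (by simp) (by have := hU.two_le; have := h rfl; omega))
  · exact two_su hU.hH hU.hB h4 (by simp)

end CF.Known.Gen2
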