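import Cfsg.Agent.Known.Gen2.Basic
import Cfsg.Agent.Classical.MinIdxO1
import Cfsg.Agent.Geom.OmegaIndex

/-! Generation of the orthogonal groups `Ω` by two elements. -/

set_option autoImplicit false

namespace CF.Known.Gen2

open Module CF.Geom CF.Classical QuadraticMap

variable {F V : Type*} [Field F] [AddCommGroup V] [Module F V] {Q : QuadraticForm F V}
  {M : Subgroup (V ≃ₗ[F] V)} {e p w a : V} {g : V ≃ₗ[F] V}

theorem exists_ne_root [Finite F] {P : Polynomial F} (hP : P ≠ 0) (h : P.natDegree < Nat.card F) :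
    ∃ t, P.eval t ≠ 0 := by
  have := Fintype.ofFinite F
  exact not_forall.1 fun e => hP (Polynomial.eq_zero_of_natDegree_lt_card_of_eval_eq_zero P
    Function.injective_id e (by rwa [← Nat.card_eq_fintype_card]))

theorem int_of_prime (h : (Nat.card F).Prime) (x : F) : ∃ k : ℤ, x = k := by
  have := Fact.mk h
  obtain ⟨k, hk⟩ := mem_zmultiples_of_prime_card (G := F) rfl (g' := x) one_ne_zero
  exact ⟨k, by simpa using hk.symm⟩

open Pres in
theorem IsGen.ne_one [Finite F] {ζ : Fˣ} (h : IsGen ζ) (h2 : Nat.card F ≠ 2) : ζ ≠ 1 := by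
  rintro rfl
  obtain ⟨a, h0, h1⟩ := exists_ne_zero_ne_one_of_card h2
  obtain ⟨k, hk⟩ := h.exists_pow h0
  simp [h1.symm] at hk

theorem dp_eic (he : Q e = 0) (ha : polarBilin Q e a = 0) :
    Dp (polarBilin Q) Q e a (eic Q e a) :=
  ⟨eic_mem_OG e a, by simp [he], ha, fun x =>
    ⟨-polar Q a x - Q a * polar Q e x, by rw [eic_apply he ha, polarBilin_apply_apply]; module⟩⟩

variable (hW : IsWittPair (RingHom.id F) (polarBilin Q) Q)
include hW

theorem Dp.eq_eic (h : Dp (polarBilin Q) Q e a g) (he : Q e = 0) (h0 : e ≠ 0) : g = eic Q e a := by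
  have h1 := h.mul (dp_eic he h.perp).inv
  rw [add_neg_cancel] at h1
  rw [← mul_inv_eq_one]
  generalize g * _ = g at h1
  have key : ∀ x, polar Q e x ≠ 0 → g x = x := fun x hx => by
    obtain ⟨k, e1⟩ := h1.disp x
    have := h1.isom.2 x
    rw [e1, smul_zero, add_zero, quad_add, quad_smul, he, polar_smul_right, polar_comm] at this
    simp [e1, show k = 0 by simpa [hx] using this]
  obtain ⟨y, hy⟩ : ∃ y, polar Q e y ≠ 0 := not_forall.1 fun hy => h0 (hW.nondeg _ hy)
  refine LinearEquiv.ext fun x => by_contra fun hx => hx ?_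
  simpa [key y hy] using key (x + y) (by simpa [polar_add_right, not_not.1 (mt (key x) hx)])

theorem Sd.eic_mem (h : a ∈ Sd (polarBilin Q) Q M e) (he : Q e = 0) (h0 : e ≠ 0) :
    eic Q e a ∈ M ∧ polarBilin Q e a = 0 := by
  obtain ⟨g, h1, h2⟩ := Sd.one h (by simp [he])
  exact ⟨h2.eq_eic hW he h0 ▸ h1, h2.perp⟩

theorem Sd.swap (h : p ∈ Sd (polarBilin Q) Q M e) (he : Q e = 0) (h0 : e ≠ 0) (hp : Q p = 0) :
    e ∈ Sd (polarBilin Q) Q M p := fun _ t => by
  obtain ⟨h1, -⟩ := Sd.eic_mem hW (Submodule.smul_mem _ (-t) h) he h0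
  obtain ⟨-, h2⟩ := Sd.eic_mem hW h he h0
  have h3 : polar Q p e = 0 := by rwa [polar_comm]
  refine ⟨_, h1, ?_⟩
  rw [eic_swap he (by simpa using .inr h2) (by simp [quad_smul, hp]),
    eic_smul hp (by simpa using h3), smul_neg, neg_smul, neg_neg]
  exact dp_eic hp (by simpa using .inr h3)

omit hW

namespace Cyc

variable [FiniteDimensional F V] {m : ℕ} {c : V ≃ₗ[F] V} {u : ℕ → V}
  (h : Cyc (polarBilin Q) Q m c u) (hc : c ∈ M)
include h

omit [FiniteDimensional F V] in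
theorem q0 (k : ℕ) : Q (u k) = 0 := by simpa using h.q k

include hc

omit [FiniteDimensional F V] in
theorem allO (h1 : u (m + 1) ∈ Sd (polarBilin Q) Q M (u 0)) :
    ∀ k < 2 * m, k ≠ m → u k ∈ Sd (polarBilin Q) Q M (u 0) := by
  obtain ⟨κ, e1, e2⟩ := h.per
  have := h.sd_shift hc h1 (m - 1)
  rw [h.pow' (l := 2 * m) (by have := h.pos; omega), e2, Submodule.smul_mem_iff _ e1] at this
  exact h.allU hc h1 (Sd.swap h.witt this (h.q0 _) (h.ne_zero _) (h.q0 _))

theorem orth (hG : PolarG (polarBilin Q) Q (OmG Q)) (hm : 2 ≤ m)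
    (h1 : u (m + 1) ∈ Sd (polarBilin Q) Q M (u 0)) (hw : ∀ k, polarBilin Q (u k) w = 0)
    (h2 : w ∈ Sd (polarBilin Q) Q M (u 0))
    (h3 : ∀ v, (∀ k, polarBilin Q (u k) v = 0) → v ∈ Submodule.span F {w, c w}) : OmG Q ≤ M := by
  have h4 := h.allO hc h1
  have h5 : c w ∈ Sd (polarBilin Q) Q M (u 0) :=
    Sd.step₂ h.witt h1 (by simpa using h.sd_shift hc h2 1) (h4 1 (by omega) (by omega)) (h.self _)
      (by apply h.perp₂ <;> omega) (h.witt.refl (h.map_v hw 0)) (h.ne₂ (by omega))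
  refine h.le hG hc ((Rad_le_iff_eichler h.witt.nondegenerate (h.ne_zero 0) (h.q0 0)
    Submodule.mem_top).2 fun a _ ha => ?_)
  rw [← eic_eq]
  exact (Sd.eic_mem h.witt (h.mem_Sd h4 (fun v hv => Submodule.span_le.2
    (by simp [Set.insert_subset_iff, h2, h5]) (h3 v hv)) ha) (h.q0 0) (h.ne_zero 0)).1

omit [FiniteDimensional F V] in
theorem move {k : ℕ} {s z : V} (hs : s ∈ Sd (polarBilin Q) Q M (u 0))
    (hz : z ∈ Sd (polarBilin Q) Q M (u k)) (h1 : polarBilin Q (u k) (u 0) = 0)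
    (h2 : polarBilin Q z (u 0) = 0) : polarBilin Q (u k) s • z -
      (polarBilin Q z s + Q z * polarBilin Q (u k) s) • u k ∈ Sd (polarBilin Q) Q M (u 0) := by
  obtain ⟨e1, e2⟩ := Sd.eic_mem h.witt hz (h.q0 k) (h.ne_zero k)
  convert Sd.move h.witt hs e1 (dp_eic (h.q0 k) e2) (h.ne_zero k) h1 h2 using 1
  simp only [eic_apply (h.q0 k) e2, polarBilin_apply_apply]; module

omit [FiniteDimensional F V] hc in
theorem pow_two_mul (h3 : c (c w) = w) (k : ℕ) : (c ^ (2 * k)) w = w := by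
  induction k with
  | zero => rfl
  | succ k ih => simp [mul_add, pow_add, pow_two, h3, ih]

omit [FiniteDimensional F V] in
theorem schemeA (hm : 2 ≤ m) (hw : ∀ k, polarBilin Q (u k) w = 0)
    (h2 : w ∈ Sd (polarBilin Q) Q M (u 0)) (h3 : c (c w) = w) (h4 : polarBilin Q (c w) w ≠ 0)
    (h5 : Even m ∨ Q w ≠ 0) : u (m + 1) ∈ Sd (polarBilin Q) Q M (u 0) := by
  have e1 := h.pow_two_mul h3
  have e2 : ∀ k, 2 * k + 1 < 2 * m → 2 * k + 1 ≠ m → u (2 * k + 1) ∈ Sd (polarBilin Q) Q M (u 0) :=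
    fun k _ _ => Sd.step h.witt h2 (h.sd_shift hc h2 _) (h.ne_zero _) (h.self _)
      (by apply h.perp₂ <;> omega) (h.witt.refl (h.pow_v hw _ 0)) (hw _)
      (by rwa [pow_succ', LinearEquiv.mul_apply, e1])
  obtain ⟨k, rfl | rfl⟩ := m.even_or_odd'
  · exact e2 k (by omega) (by omega)
  have := h.move hc (e2 0 (by omega) (by omega)) (e1 (k + 1) ▸ h.sd_shift hc h2 (2 * (k + 1)))
    (by apply h.perp₂ <;> omega) (h.witt.refl (hw 0))
  rwa [sub_mem_comm_iff, (Sd _ _ _ _).sub_mem_iff_left (Submodule.smul_mem _ _ h2),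
    h.witt.refl (hw _), zero_add, Submodule.smul_mem_iff _
      (mul_ne_zero (h5.resolve_left (by simp)) (h.ne₂ (by omega)))] at this

omit [FiniteDimensional F V] in
theorem schemeB (hm : 3 ≤ m) (h2 : (2 : F) ≠ 0) (hw : ∀ k, polarBilin Q (u k) w = 0) {b : F}
    (h1 : u 1 + b • u (m + 1) + w ∈ Sd (polarBilin Q) Q M (u 0))
    (h3 : Q (u 1 + b • u (m + 1) + w) ≠ 0) : u (m + 1) ∈ Sd (polarBilin Q) Q M (u 0) := by
  have p := @h.perp₂
  have e1 := h.sd_shift hc h1 (m + 1)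
  have e2 := (pow_mem h.isom (m + 1)).2 (u 1 + b • u (m + 1) + w)
  have e3 : polarBilin Q ((c ^ (m + 1)) (u 1 + b • u (m + 1) + w)) (u 0) = 0 := by
    simp only [map_add, map_smul, h.pow, LinearMap.add_apply, LinearMap.smul_apply,
      h.witt.refl (h.pow_v hw _ _)]
    rw [p, p] <;> first | omega | simp
  have e4 : polarBilin Q (u (m + 1)) (u 1 + b • u (m + 1) + w) ≠ 0 := by
    simpa [-polarBilin_apply_apply, hw, h.self] using h.ne₂ (by omega)
  have e5 := (Sd.eic_mem h.witt e1 (h.q0 _) (h.ne_zero _)).2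
  have e6 : polarBilin Q (u (m + 1)) (u 0) = 0 := by apply p <;> omega
  have := h.move hc (h.move hc h1 e1 e6 e3) e1 e6 e3
  generalize (c ^ (m + 1)) _ = z at *
  simp only [map_sub, map_smul, e5, h.witt.refl e5, h.self, smul_zero, sub_zero, zero_smul,
    mul_zero, add_zero, zero_sub, neg_mem_iff] at this
  rwa [Submodule.smul_mem_iff] at this
  simpa [e2, h2, h3] using e4

omit [FiniteDimensional F V] in
theorem schemeC (hm : 3 ≤ m) (hF : ∀ x : F, x ≠ 0 → x = 1) (hw : ∀ k, polarBilin Q (u k) w = 0)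
    (h1 : u 1 + u (m + 1) + w ∈ Sd (polarBilin Q) Q M (u 0)) (h3 : c (c w) = w)
    (h4 : polarBilin Q (c w) w ≠ 0) (h5 : Odd m) (h6 : Q w = 0) :
    u (m + 1) ∈ Sd (polarBilin Q) Q M (u 0) := by
  have p := @h.perp₂
  have h2 : (1 + 1 : F) = 0 := by_contra fun e => by simpa using hF _ e
  have n {i j : ℕ} (e : j = i + m ∨ i = j + m) := hF _ (h.ne₂ e)
  have r (k : ℕ) := h.witt.refl (hw k)
  have r' (k : ℕ) := h.witt.refl (h.map_v hw k)
  obtain ⟨κ, k1, k2⟩ := h.per'
  have e1 := h.sd_shift hc h1 1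
  have e2 := h.isom.2 (u 1 + u (m + 1) + w)
  rw [quad_add Q _ w, quad_add, h.q0, h.q0, h6, ← polarBilin_apply_apply, ← polarBilin_apply_apply,
    n (by omega), LinearMap.map_add₂, hw, hw] at e2
  simp only [map_add, pow_one, h.succ] at e1 e2
  have e3 := h.move hc h1 e1 (by apply p <;> omega) (by
    simp only [LinearMap.map_add₂, r']; rw [p, p] <;> first | omega | simp)
  simp only [LinearMap.add_apply, map_add, r', e2, hw, hF _ h4, h.self, n (i := 1) (j := m + 1)
    (by omega)] at e3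
  rw [p, p, p, p] at e3 <;> try omega
  simp only [h2, zero_add, add_zero, mul_one, one_smul, zero_smul, sub_zero] at e3
  have e4 := h.sd_shift hc h1 (m + 1)
  obtain ⟨k, hk⟩ : ∃ k, m + 1 = 2 * k := ⟨(m + 1) / 2, by have := Nat.odd_iff.1 h5; omega⟩
  have e5 : (c ^ (m + 1)) w = w := hk ▸ h.pow_two_mul h3 k
  simp only [map_add, h.pow, e5, show m + 1 + (m + 1) = 2 + 2 * m by ring, k2, hF _ k1,
    one_smul] at e4
  refine Sd.step h.witt e3 e4 (h.ne_zero _) (h.self _) (by apply p <;> omega) ?_ ?_ ?_ <;>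
  simp only [LinearMap.add_apply, map_add, r, h.map_v hw]
  · rw [p, p] <;> first | omega | simp
  · rw [p, p] <;> first | omega | simp
  · rw [n (by omega), p, p, n (by omega), hF _ (mt h.witt.refl h4)] <;> first | omega | simp [h2]

omit hc in
theorem two_of [Finite F] (h5 : 5 ≤ finrank F V) (hm : 2 ≤ m) (hc : c ∈ OmG Q)
    (hw : polarBilin Q (u 0) w = 0)
    (hp : (Nat.card F).Prime ∨ Nat.card F ≠ 2 ∧ ∀ k, polarBilin Q (u k) w = 0)
    (H : ∀ M, c ∈ M → w ∈ Sd (polarBilin Q) Q M (u 0) → OmG Q ≤ M) : Two (OmG Q) := by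
  have hx := eic_mem h.witt.nondegenerate h5 (u 0) w
  have hd := dp_eic (h.q0 0) hw
  rcases hp with hp | ⟨h1, h2⟩
  · exact ⟨_, hx, c, hc, fun M e1 e2 => H M e2 fun _ => spread_prime
      (P := fun t g => Dp (polarBilin Q) Q (u 0) (t • w) g)
      (fun a b => by simpa only [add_smul] using a.mul b)
      (fun a => by simpa only [neg_smul] using a.inv) (int_of_prime hp) e1 (by simpa)⟩
  obtain ⟨ζ, hζ⟩ := Pres.exists_isGen F
  obtain ⟨g, hg, e⟩ := h.exists_trick (polarG_omega' h.witt.nondegenerate h5) hm (fun _ => rfl) hζ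
    (IsGen.ne_one hζ h1)
  refine ⟨g, hg, _, mul_mem hx hc, fun M e1 e2 => ?_⟩
  have := e M e1 _ w h2 hd e2
  exact H M ((mul_mem_cancel_left (Sd.eic_mem h.witt this (h.q0 0) (h.ne_zero 0)).1).1 e2) this

end Cyc

variable [Finite F] [FiniteDimensional F V] (hQ : (polarBilin Q).Nondegenerate)
include hQ

theorem two_omega_aux (h5 : 5 ≤ finrank F V) {m : ℕ} {e f : Fin (m + 1) → V} (hf : QFrame Q e f)
    (hm : 1 ≤ m) {v w : V} (hv : v ∈ perp (polarBilin Q) (hypSpan F e f))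
    (hw : w ∈ perp (polarBilin Q) (hypSpan F e f)) (qv : Q v ≠ 0) (b : polar Q v w ≠ 0)
    (sp : perp (polarBilin Q) (hypSpan F e f) ≤ Submodule.span F {v, w})
    (H : 2 * Q v * Q w ≠ polar Q v w ^ 2 ∧ (Even (m + 1) ∨ Q w ≠ 0) ∨ 2 ≤ m ∧
      ((Nat.card F).Prime ∧ (2 : F) ≠ 0 ∨ Nat.card F = 2 ∧ Odd (m + 1) ∧ Q w = 0)) :
    Two (OmG Q) := by
  have hG := polarG_omega' hQ h5
  have hv' := mem_perp_hypSpan.1 hv
  have fx : ∀ i, (oRefl Q v).1 (e i) = e i ∧ (oRefl Q v).1 (f i) = f i := fun i =>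
    ⟨oRefl_of_polar_eq_zero (hG.witt.refl (hv'.1 i)), oRefl_of_polar_eq_zero (hG.witt.refl (hv'.2 i))⟩
  have hr := oRefl_hyp_apply (hf.qe' 0) (hf.qf' 0) (hf.ef_self 0) (neg_ne_zero.2 qv)
  obtain ⟨c, hc, u, h, h1, h2⟩ := exists_cyc hG hf (oRefl_mul_mem_OmG hQ (v := e 0 - -Q v • f 0)
    (w := v) (by simpa [quad_add, quad_smul, hf.qe', hf.qf', hf.polar_ef]) (by
      simp [quad_add, quad_smul, hf.qe', hf.qf', hf.polar_ef])) (neg_ne_zero.2 qv)
    (inv_ne_zero (neg_ne_zero.2 qv)) (by simp only [LinearEquiv.mul_apply, fx, hr])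
    (by simp only [LinearEquiv.mul_apply, fx, hr]) fun i hi => by
      simp only [LinearEquiv.mul_apply, fx]
      exact ⟨oRefl_of_polar_eq_zero (by simp [hf.polar_ee, hf.polar_fe, hi, hi.symm]),
        oRefl_of_polar_eq_zero (by simp [hf.polar_ef, hf.polar_ff, hi.symm])⟩
  have h3 : ∀ x ∈ perp (polarBilin Q) (hypSpan F e f), c x = x - ((Q v)⁻¹ * polar Q v x) • v :=
    fun x hx => by
      have := mem_perp_hypSpan.1 (sub_mem hx (Submodule.smul_mem _ ((Q v)⁻¹ * polar Q v x) hv))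
      rw [h2 x hx, LinearEquiv.mul_apply, oRefl_apply v, oRefl_of_polar_eq_zero]
      rw [polar_sub_left, polar_smul_left, show polar Q (e 0) _ = 0 from this.1 0,
        show polar Q (f 0) _ = 0 from this.2 0, smul_zero, sub_zero]
  have h4 : c (c w) = w := by
    rw [h3 w hw, map_sub, map_smul, h3 w hw, h3 v hv, polar_self']; match_scalars <;> field_simp; ring
  have h6 : 2 * Q v * Q w ≠ polar Q v w ^ 2 → polarBilin Q (c w) w ≠ 0 := mt fun e => by
    simp only [h3 w hw, polarBilin_apply_apply, polar_sub_left, polar_smul_left, polar_self',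
      smul_eq_mul] at e
    field_simp at e
    linear_combination e
  have hw' := (h1 w).2 hw
  have key : ∀ M, c ∈ M → u (m + 1 + 1) ∈ Sd (polarBilin Q) Q M (u 0) →
      w ∈ Sd (polarBilin Q) Q M (u 0) → OmG Q ≤ M := fun M e1 e2 e3 =>
    h.orth e1 hG (by omega) e2 hw' e3 fun x hx => Submodule.span_le.2 (by
      have := sub_mem (Submodule.subset_span (R := F) (s := {w, c w}) (.inl rfl))
        (Submodule.subset_span (.inr rfl))
      rw [h3 w hw, sub_sub_cancel, Submodule.smul_mem_iff _ (by simp [qv, b]), ← h3 w hw] at this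
      rintro _ (rfl | rfl)
      exacts [this, Submodule.subset_span (.inl rfl)]) (sp ((h1 x).1 hx))
  have key' : 2 ≤ m → (Nat.card F).Prime → ∀ b : F, (∀ M, c ∈ M →
      u 1 + b • u (m + 1 + 1) + w ∈ Sd (polarBilin Q) Q M (u 0) →
      u (m + 1 + 1) ∈ Sd (polarBilin Q) Q M (u 0)) → Two (OmG Q) := fun hm hp b H =>
    h.two_of (w := u 1 + b • u (m + 1 + 1) + w) h5 (by omega) hc (by
      rw [map_add, map_add, map_smul, hw', h.perp₂, h.perp₂] <;> first | omega | simp) (.inl hp) fun M e1 e2 => by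
      have e3 := H M e1 e2
      exact key M e1 e3 ((add_mem_cancel_left (add_mem (h.allO e1 e3 1 (by omega) (by omega))
        (Submodule.smul_mem _ _ e3))).1 e2)
  obtain ⟨a1, a2⟩ | ⟨a1, ⟨a2, a3⟩ | ⟨a2, a3, a4⟩⟩ := H
  · exact h.two_of h5 (by omega) hc (hw' 0) ((em (Nat.card F = 2)).imp (fun e => by rw [e]; norm_num) (⟨·, hw'⟩))
      fun M e1 e2 => key M e1 (h.schemeA e1 (by omega) hw' e2 h4 (h6 a1) a2) e2
  · have n := h.ne₂ (i := 1) (j := m + 1 + 1) (by omega)
    refine key' a1 a2 ((1 - Q w) / polarBilin Q (u 1) (u (m + 1 + 1))) fun M e1 e2 =>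
      h.schemeB e1 (by omega) a3 hw' e2 ?_
    simp only [quad_add, quad_smul, h.q0, ← polarBilin_apply_apply, map_add, map_smul,
      LinearMap.add_apply, LinearMap.smul_apply, hw', smul_eq_mul, div_mul_cancel₀ _ n]
    simp
  · refine key' a1 (a2 ▸ Nat.prime_two) 1 fun M e1 e2 => h.schemeC e1 (by omega) (fun x hx => ?_)
      hw' (by simpa using e2) h4 (h6 (by simpa [a4] using (pow_ne_zero 2 b).symm)) a3 a4
    obtain ⟨y, -, hy⟩ := (Nat.card_eq_two_iff' (0 : F)).1 a2
    rw [hy x hx, hy 1 one_ne_zero]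

omit [Finite F] in
theorem exists_perp_pair {ι : Type*} [Finite ι] {e f : ι → V} (hf : QFrame Q e f)
    (h : perp (polarBilin Q) (hypSpan F e f) ≠ ⊥) : ∃ x ∈ perp (polarBilin Q) (hypSpan F e f),
      Q x ≠ 0 ∧ ∃ y ∈ perp (polarBilin Q) (hypSpan F e f), polar Q x y ≠ 0 := by
  have hW := isWittPair_quad Q hQ
  have hd := hW.disjoint_perp_perp (hf.disjoint hW)
  generalize perp (polarBilin Q) (hypSpan F e f) = U at *
  obtain ⟨x, hx, qx⟩ : ∃ x ∈ U, Q x ≠ 0 := by
    by_contra! hU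
    exact h (hd.eq_bot_of_le (le_perp_of_totally_singular hU))
  refine ⟨x, hx, qx, ?_⟩
  by_contra! hU
  exact qx (by simp [Submodule.disjoint_def.1 hd x hx (mem_perp.2 fun y hy => hW.refl (hU y hy))])

theorem two_omega_odd {m : ℕ} (hm : 2 ≤ m) (hd : finrank F V = 2 * m + 1) : Two (OmG Q) := by
  obtain ⟨m, rfl⟩ : ∃ k, m = k + 1 := ⟨m - 1, by omega⟩
  obtain ⟨e, f, hf⟩ := exists_qFrame_of_le hQ hd.ge
  have h1 := hf.finrank_perp (isWittPair_quad Q hQ)
  rw [Fintype.card_fin, hd, add_right_inj] at h1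
  obtain ⟨x, hx, qx, y, hy, b⟩ := exists_perp_pair hQ hf (by intro e; rw [e] at h1; simp at h1)
  have h2 : F ∙ x = perp (polarBilin Q) (hypSpan F e f) := Submodule.eq_of_le_of_finrank_eq
    (by simpa) (by rw [h1, finrank_span_singleton]; rintro rfl; simp at qx)
  obtain ⟨t, rfl⟩ := Submodule.mem_span_singleton.1 (h2.ge hy)
  have h3 : (2 : F) ≠ 0 := fun e => b (by simp [polar_self', e])
  refine two_omega_aux hQ (by omega) hf (by omega) hx hx qx (by rw [polar_self']; simp [qx, h3]) (by simp [h2])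
    (.inl ⟨fun e => mul_ne_zero h3 (pow_ne_zero 2 qx) ?_, .inr qx⟩)
  rw [polar_self'] at e
  linear_combination -e

open Polynomial in
theorem two_omega_even {m : ℕ} (hm : 4 ≤ m) (hd : finrank F V = 2 * m) : Two (OmG Q) := by
  obtain ⟨m, rfl⟩ : ∃ k, m = k + 2 := ⟨m - 2, by omega⟩
  obtain ⟨e, f, hf⟩ := exists_qFrame_of_le hQ (k := m + 1) (by omega)
  have h1 := hf.finrank_perp (isWittPair_quad Q hQ)
  replace h1 : finrank F (perp (polarBilin Q) (hypSpan F e f)) = 2 := by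
    rw [Fintype.card_fin, hd] at h1; omega
  obtain ⟨x, hx, qx, y₀, hy, b⟩ := exists_perp_pair hQ hf (by intro e; rw [e] at h1; simp at h1)
  have x0 : x ≠ 0 := by rintro rfl; simp at qx
  obtain ⟨y, hy, b, hl⟩ : ∃ y ∈ perp (polarBilin Q) (hypSpan F e f), polar Q x y ≠ 0 ∧ y ∉ F ∙ x := by
    obtain ⟨z, hz, hl⟩ := SetLike.not_le_iff_exists.1
        fun e : perp (polarBilin Q) (hypSpan F e f) ≤ F ∙ x => by
      have := Submodule.finrank_mono e
      rw [finrank_span_singleton x0] at this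
      omega
    by_cases e1 : y₀ ∈ F ∙ x
    · by_cases e2 : polar Q x z = 0
      · exact ⟨y₀ + z, add_mem hy hz, by simpa [polar_add_right, e2], by
          rwa [add_mem_cancel_left e1]⟩
      · exact ⟨z, hz, e2, hl⟩
    · exact ⟨y₀, hy, b, e1⟩
  have h2 : Submodule.span F {x, y} = perp (polarBilin Q) (hypSpan F e f) :=
    Submodule.eq_of_le_of_finrank_eq (by simp [Submodule.span_le, Set.insert_subset_iff, hx, hy])
      (by rw [finrank_span_pair (linearIndependent_pair_of_notMem x0 hl), h1])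
  have A := fun H => two_omega_aux hQ (by omega) hf (by omega) hx hy qx b h2.ge H
  have B : (∃ t, Q x * t ^ 2 + polar Q x y * t + Q y ≠ 0 ∧ 2 * Q x * t + polar Q x y ≠ 0 ∧
      2 * Q x ^ 2 * t ^ 2 + 2 * Q x * polar Q x y * t + (polar Q x y ^ 2 - 2 * Q x * Q y) ≠ 0) →
      Two (OmG Q) := fun ⟨t, e1, e2, e3⟩ => by
    have q1 : Q (y + t • x) = Q x * t ^ 2 + polar Q x y * t + Q y := by
      simp only [quad_add, quad_smul, polar_smul_left, polar_comm Q y, smul_eq_mul]; ring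
    have q2 : polar Q (y + t • x) x = 2 * Q x * t + polar Q x y := by
      simp only [polar_add_left, polar_smul_left, polar_comm Q y, polar_self', smul_eq_mul]; ring
    refine two_omega_aux hQ (by omega) hf (by omega) (add_mem hy (Submodule.smul_mem _ t hx)) hx
      (q1 ▸ e1) (q2 ▸ e2) (h2.ge.trans (Submodule.span_le.2 ?_))
      (.inl ⟨fun e => e3 (by rw [q1, q2] at e; linear_combination -e), .inr qx⟩)
    have := sub_mem (Submodule.subset_span (R := F) (s := {y + t • x, x}) (.inl rfl))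
      (Submodule.smul_mem _ t (Submodule.subset_span (.inr rfl)))
    rintro _ (rfl | rfl)
    exacts [Submodule.subset_span (.inr rfl), by simpa using this]
  have P1 : C (Q x) * X ^ 2 + C (polar Q x y) * X + C (Q y) ≠ 0 := fun e => by
    simpa [qx] using congrArg (coeff · 2) e
  have c2 : 1 < Nat.card F := Finite.one_lt_card
  by_cases h : (2 : F) = 0
  · by_cases e : Nat.card F = 2
    · refine A ((em (Even (m + 1) ∨ Q y ≠ 0)).imp (⟨by simpa [h] using (pow_ne_zero 2 b).symm, ·⟩) fun e' => ?_)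
      push Not at e'
      exact ⟨by omega, .inr ⟨e, Nat.not_even_iff_odd.1 e'.1, e'.2⟩⟩
    obtain ⟨t, ht⟩ := exists_ne_root P1 (lt_of_le_of_lt (by compute_degree) (by omega : 2 < _))
    exact B ⟨t, by simpa using ht, by simpa [h], by simpa [h]⟩
  by_cases e : (Nat.card F).Prime
  · exact A (.inr ⟨by omega, .inl ⟨e, h⟩⟩)
  have c6 : 5 < Nat.card F := by
    have := Fintype.ofFinite F
    have e4 : Nat.card F ≠ 4 := fun e => h ((pow_eq_zero_iff two_ne_zero).1 (by
      have := FiniteField.cast_card_eq_zero F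
      rw [← Nat.card_eq_fintype_card, e] at this
      linear_combination (exp := 1) this))
    by_contra
    interval_cases Nat.card F <;> simp_all +decide
  obtain ⟨t, ht⟩ := exists_ne_root (mul_ne_zero (mul_ne_zero P1
    (show C (2 * Q x) * X + C (polar Q x y) ≠ 0 from fun e => by
      simpa [b] using congrArg (coeff · 0) e))
    (show C (2 * Q x ^ 2) * X ^ 2 + C (2 * Q x * polar Q x y) * X +
        C (polar Q x y ^ 2 - 2 * Q x * Q y) ≠ 0 from fun e => by
      simpa [qx, h, -map_mul, -map_pow, -map_sub] using congrArg (coeff · 2) e))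
    (lt_of_le_of_lt (by compute_degree) c6)
  exact B ⟨t, by simpa [and_assoc, not_or] using ht⟩

omit [Finite F] [FiniteDimensional F V] hQ in
theorem Two.pomega {ι : Type} [Fintype ι] [DecidableEq ι] {Q : QuadraticForm F (ι → F)}
    (h : Two (OmG Q)) : ∃ a b : Cfsg.POmega F Q, Subgroup.closure {a, b} = ⊤ :=
  h.transfer ((omegaEquiv Q).trans (Subgroup.equivMapOfInjective _ _ (OG Q).subtype_injective))
    (QuotientGroup.mk' _) (QuotientGroup.mk'_surjective _)

end CF.Known.Gen2
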